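import Cfsg.Agent.Lib.Helper95.Symp

set_option autoImplicit false
set_option linter.unusedSimpArgs false

namespace Cfsg.Agent.Lib.Helper95

open Module

/-- A non-degenerate Hermitian form (linear in the first variable) w.r.t. an involution `σ ≠ 1`. -/
structure HForm {K V : Type*} [Field K] [AddCommGroup V] [Module K V] (σ : K ≃+* K)
    (f : V → V → K) : Prop where
  ne_id : ∃ a, σ a ≠ a
  invol : ∀ a, σ (σ a) = a
  add_left : ∀ x y v, f (x + y) v = f x v + f y v
  smul_left : ∀ (c : K) (x v : V), f (c • x) v = c * f x v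
  herm : ∀ v w, f v w = σ (f w v)
  nondeg : ∀ v, v ≠ 0 → ∃ x, f x v ≠ 0

section field

variable {K : Type*} [Field K] {σ : K ≃+* K}

lemma exists_kappa (hne : ∃ a, σ a ≠ a) (hinv : ∀ a, σ (σ a) = a) : ∃ κ, κ ≠ 0 ∧ σ κ = -κ := by
  obtain ⟨a, ha⟩ := hne
  refine ⟨a - σ a, fun h => ha (sub_eq_zero.1 h).symm, ?_⟩
  rw [map_sub, hinv]; ring

lemma exists_theta (hne : ∃ a, σ a ≠ a) (hinv : ∀ a, σ (σ a) = a) : ∃ θ, θ + σ θ = 1 := by
  obtain ⟨a, ha⟩ := hne
  by_cases h : a + σ a = 0
  · have h2 : (2 : K) ≠ 0 := by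
      intro h2
      apply ha
      have : σ a = -a := by linear_combination h
      rw [this]
      linear_combination (-a) * h2
    refine ⟨1 / 2, ?_⟩
    rw [map_div₀, map_one, map_ofNat]
    field_simp
    norm_num
  · refine ⟨a / (a + σ a), ?_⟩
    rw [map_div₀, map_add, hinv, add_comm (σ a) a]
    field_simp

lemma exists_trace_eq (hne : ∃ a, σ a ≠ a) (hinv : ∀ a, σ (σ a) = a) {b : K} (hb : b ≠ 0) {a : K}
    (ha : σ a = a) : ∃ t, t * b + σ (t * b) = a := by
  obtain ⟨θ, hθ⟩ := exists_theta hne hinv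
  refine ⟨a * θ / b, ?_⟩
  rw [div_mul_cancel₀ _ hb, map_mul, ha]
  linear_combination a * hθ

lemma exists_decomp_fixed (hinv : ∀ a, σ (σ a) = a) {μ : K} (hμ : σ μ ≠ μ) (a : K) :
    ∃ s t, σ s = s ∧ σ t = t ∧ a = s + t * μ := by
  have hd : μ - σ μ ≠ 0 := fun h => hμ (sub_eq_zero.1 h).symm
  have hd' : σ μ - μ ≠ 0 := fun h => hμ (sub_eq_zero.1 h)
  have ht : σ ((a - σ a) / (μ - σ μ)) = (a - σ a) / (μ - σ μ) := by
    rw [map_div₀, map_sub, map_sub, hinv, hinv]
    field_simp
    ring
  refine ⟨a - (a - σ a) / (μ - σ μ) * μ, (a - σ a) / (μ - σ μ), ?_, ht, by ring⟩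
  rw [map_sub, map_mul, ht]
  field_simp
  ring

/-- Surjectivity of the norm for finite fields. -/
lemma norm_surj [Finite K] (hne : ∃ a, σ a ≠ a) (hinv : ∀ a, σ (σ a) = a) {a : K} (ha : σ a = a) :
    ∃ l, l * σ l = a := by
  classical
  by_cases ha0 : a = 0
  · exact ⟨0, by simp [ha0]⟩
  let S : Kˣ →* Kˣ := Units.map (σ : K →* K)
  have hS : ∀ x : Kˣ, ((S x : Kˣ) : K) = σ x := fun x => rfl
  have hSS : ∀ x : Kˣ, S (S x) = x := fun x => Units.ext (by rw [hS, hS, hinv])
  let N : Kˣ →* Kˣ := MonoidHom.id _ * S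
  let D : Kˣ →* Kˣ := MonoidHom.id _ * S⁻¹
  have hN : ∀ x, N x = x * S x := fun x => rfl
  have hD : ∀ x, D x = x * (S x)⁻¹ := fun x => rfl
  have h1 : N.ker = D.range := by
    apply le_antisymm
    · intro l hl
      rw [MonoidHom.mem_ker, hN] at hl
      have hl' : (l : K) * σ l = 1 := by
        have := congrArg (fun u : Kˣ => (u : K)) hl
        simpa [hS] using this
      -- Hilbert 90
      have hex : ∃ t : K, t + l * σ t ≠ 0 := by
        by_contra hcon
        push Not at hcon
        have e1 := hcon 1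
        rw [map_one, mul_one] at e1
        obtain ⟨b, hb⟩ := hne
        apply hb
        have e2 := hcon b
        have : (l : K) = -1 := by linear_combination e1
        rw [this] at e2
        linear_combination -e2
      obtain ⟨t, ht⟩ := hex
      refine ⟨Units.mk0 _ ht, ?_⟩
      rw [hD]
      apply Units.ext
      rw [Units.val_mul, Units.val_inv_eq_inv_val, hS, Units.val_mk0, map_add, map_mul, hinv]
      have h3 : σ t + σ l * t ≠ 0 := by
        intro h0
        apply ht
        have : (l : K) * (σ t + σ l * t) = t + l * σ t := by linear_combination t * hl'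
        rw [← this, h0, mul_zero]
      rw [mul_inv_eq_iff_eq_mul₀ h3]
      linear_combination (-t) * hl'
    · rintro _ ⟨x, rfl⟩
      rw [MonoidHom.mem_ker, hN, hD, map_mul, map_inv, hSS]
      group
  let A : Subgroup Kˣ := D.ker
  have hA : ∀ x : Kˣ, x ∈ A ↔ S x = x := by
    intro x
    change D x = 1 ↔ _
    rw [hD, mul_inv_eq_one]
    exact eq_comm
  have h2 : N.range ≤ A := by
    rintro _ ⟨x, rfl⟩
    rw [hA, hN, map_mul, hSS, mul_comm]
  have c1 : Nat.card N.ker * Nat.card N.range = Nat.card Kˣ := by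
    rw [← Subgroup.index_ker, Subgroup.card_mul_index]
  have c2 : Nat.card D.ker * Nat.card D.range = Nat.card Kˣ := by
    rw [← Subgroup.index_ker, Subgroup.card_mul_index]
  have c3 : Nat.card A = Nat.card N.range := by
    rw [h1] at c1
    have hpos : 0 < Nat.card D.range := Nat.card_pos
    have : Nat.card D.range * Nat.card N.range = Nat.card D.range * Nat.card A := by
      rw [c1, ← c2, mul_comm]
    exact (Nat.eq_of_mul_eq_mul_left hpos this).symm
  have h3 : N.range = A := Subgroup.eq_of_le_of_card_ge h2 c3.le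
  have h4 : Units.mk0 a ha0 ∈ A := by
    rw [hA]
    apply Units.ext
    rw [hS, Units.val_mk0, ha]
  rw [← h3] at h4
  obtain ⟨l, hl⟩ := h4
  refine ⟨l, ?_⟩
  have := congrArg (fun u : Kˣ => (u : K)) hl
  simpa [hN, hS] using this

end field

namespace HForm

variable {K V : Type*} [Field K] [AddCommGroup V] [Module K V] {σ : K ≃+* K} {f : V → V → K}
variable (hf : HForm σ f)
include hf

lemma add_right (v x y : V) : f v (x + y) = f v x + f v y := by
  rw [hf.herm, hf.add_left, map_add, ← hf.herm, ← hf.herm]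

lemma smul_right (c : K) (v x : V) : f v (c • x) = σ c * f v x := by
  rw [hf.herm, hf.smul_left, map_mul, ← hf.herm]

lemma zero_left (v : V) : f 0 v = 0 := by
  have := hf.smul_left 0 0 v
  simpa using this

lemma zero_right (v : V) : f v 0 = 0 := by rw [hf.herm, hf.zero_left, map_zero]

lemma neg_left (x v : V) : f (-x) v = - f x v := by
  have := hf.smul_left (-1) x v
  simpa using this

lemma neg_right (v x : V) : f v (-x) = - f v x := by
  rw [hf.herm, hf.neg_left, map_neg, ← hf.herm]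

lemma sub_left (x y v : V) : f (x - y) v = f x v - f y v := by
  rw [sub_eq_add_neg, hf.add_left, hf.neg_left, sub_eq_add_neg]

lemma sub_right (v x y : V) : f v (x - y) = f v x - f v y := by
  rw [sub_eq_add_neg, hf.add_right, hf.neg_right, sub_eq_add_neg]

lemma self_fixed (v : V) : σ (f v v) = f v v := (hf.herm v v).symm

lemma eq_zero_comm {v w : V} : f v w = 0 ↔ f w v = 0 := by
  constructor <;> intro h <;> rw [hf.herm, h, map_zero]

lemma ne_zero_comm {v w : V} : f v w ≠ 0 ↔ f w v ≠ 0 := not_congr hf.eq_zero_comm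

/-- The functional `x ↦ f x w`. -/
def dual (w : V) : Module.Dual K V where
  toFun x := f x w
  map_add' x y := hf.add_left x y w
  map_smul' c x := hf.smul_left c x w

@[simp] lemma dual_apply (w x : V) : hf.dual w x = f x w := rfl

lemma nondeg' {v : V} (hv : v ≠ 0) : ∃ x, f v x ≠ 0 := by
  obtain ⟨x, hx⟩ := hf.nondeg v hv
  exact ⟨x, hf.ne_zero_comm.1 hx⟩

lemma eq_of_forall {w w' : V} (h : ∀ x, f x w = f x w') : w = w' := by
  by_contra hne
  obtain ⟨x, hx⟩ := hf.nondeg (w - w') (sub_ne_zero.2 hne)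
  apply hx
  rw [hf.sub_right, h x, sub_self]

/-- If all vectors of a subspace are isotropic, the subspace is totally isotropic. -/
lemma polarize {Z : Submodule K V} (h : ∀ z ∈ Z, f z z = 0) {z z' : V} (hz : z ∈ Z) (hz' : z' ∈ Z) :
    f z z' = 0 := by
  have key : ∀ l : K, σ l * f z z' + l * σ (f z z') = 0 := by
    intro l
    have := h (z + l • z') (Z.add_mem hz (Z.smul_mem l hz'))
    rw [hf.add_left, hf.add_right, hf.add_right, hf.smul_left, hf.smul_left, hf.smul_right,
      hf.smul_right, h z hz, h z' hz'] at this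
    rw [← hf.herm z' z]
    linear_combination this
  obtain ⟨μ, hμ⟩ := hf.ne_id
  have e1 := key 1
  have e2 := key μ
  rw [map_one] at e1
  have : (σ μ - μ) * f z z' = 0 := by linear_combination e2 - μ * e1
  rcases mul_eq_zero.1 this with h | h
  · exact absurd (sub_eq_zero.1 h) hμ
  · exact h

lemma self_add_smul (z v : V) (t : K) (hv : f v v = 0) :
    f (z + t • v) (z + t • v) = f z z + (t * f v z + σ (t * f v z)) := by
  rw [hf.add_left, hf.add_right, hf.add_right, hf.smul_left, hf.smul_left, hf.smul_right,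
    hf.smul_right, hv, map_mul, ← hf.herm z v]
  ring

/-- Adjust `z` along an isotropic `v` not orthogonal to it, to make it isotropic. -/
lemma exists_iso_adjust {v z : V} (hv : f v v = 0) (hvz : f v z ≠ 0) :
    ∃ t : K, f (z + t • v) (z + t • v) = 0 := by
  obtain ⟨t, ht⟩ := exists_trace_eq hf.ne_id hf.invol hvz
    (a := - f z z) (by rw [map_neg, hf.self_fixed])
  exact ⟨t, by rw [hf.self_add_smul z v t hv, ht]; ring⟩

section findim

variable [FiniteDimensional K V]

lemma exists_perp {k : ℕ} (a : Fin k → V) (hk : k < finrank K V) :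
    ∃ z, z ≠ 0 ∧ ∀ i, f z (a i) = 0 := by
  let L : V →ₗ[K] (Fin k → K) := LinearMap.pi (fun i => hf.dual (a i))
  have hker : LinearMap.ker L ≠ ⊥ := LinearMap.ker_ne_bot_of_finrank_lt (by simpa using hk)
  obtain ⟨z, hz, hz0⟩ := Submodule.exists_mem_ne_zero_of_ne_bot hker
  refine ⟨z, hz0, fun i => ?_⟩
  have := congrFun (LinearMap.mem_ker.1 hz) i
  simpa [L] using this

/-- Riesz representation. -/
lemma exists_repr (φ : Module.Dual K V) : ∃ w, ∀ x, f x w = φ x := by
  let S : Submodule K (Module.Dual K V) :=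
    { carrier := Set.range hf.dual
      add_mem' := by
        rintro _ _ ⟨a, rfl⟩ ⟨b, rfl⟩
        exact ⟨a + b, by ext x; simp [hf.add_right]⟩
      zero_mem' := ⟨0, by ext x; simp [hf.zero_right]⟩
      smul_mem' := by
        rintro c _ ⟨a, rfl⟩
        exact ⟨σ c • a, by ext x; simp [hf.smul_right, hf.invol]⟩ }
  have h1 : S.dualCoannihilator = ⊥ := by
    rw [eq_bot_iff]
    intro x hx
    rw [Submodule.mem_dualCoannihilator] at hx
    by_contra hx0
    obtain ⟨y, hy⟩ := hf.nondeg' hx0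
    exact hy (hx (hf.dual y) ⟨y, rfl⟩)
  have h2 : S = ⊤ := by
    rw [← Subspace.dualCoannihilator_dualAnnihilator_eq (W := S), h1]
    simp
  have : φ ∈ S := by rw [h2]; trivial
  obtain ⟨w, hw⟩ := this
  exact ⟨w, fun x => by rw [← hw]; rfl⟩

omit [FiniteDimensional K V] in
/-- If `w` is orthogonal to everything orthogonal to the `a i`, it lies in their span. -/
lemma mem_span_of_perp {k : ℕ} (a : Fin k → V) {w : V}
    (h : ∀ z, (∀ i, f z (a i) = 0) → f z w = 0) : w ∈ Submodule.span K (Set.range a) := by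
  have h1 : hf.dual w ∈ Submodule.span K (Set.range (fun i => hf.dual (a i))) := by
    apply mem_span_of_iInf_ker_le_ker
    intro z hz
    rw [Submodule.mem_iInf] at hz
    exact h z hz
  obtain ⟨c, hc⟩ := (Submodule.mem_span_range_iff_exists_fun K).1 h1
  have h2 : w = ∑ i, σ (c i) • a i := by
    apply hf.eq_of_forall
    intro x
    have e : ∀ s : Finset (Fin k), f x (∑ i ∈ s, σ (c i) • a i) = ∑ i ∈ s, c i * f x (a i) := by
      intro s
      induction s using Finset.induction_on with
      | empty => simp [hf.zero_right]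
      | insert i s hi ih =>
        rw [Finset.sum_insert hi, Finset.sum_insert hi, hf.add_right, ih, hf.smul_right, hf.invol]
    rw [e]
    have := congrArg (fun φ : Module.Dual K V => φ x) hc
    simpa using this.symm
  rw [h2]
  exact Submodule.sum_mem _ fun i _ => Submodule.smul_mem _ _ (Submodule.subset_span ⟨i, rfl⟩)

lemma exists_perp_aniso {k : ℕ} (a : Fin k → V) (hk : 2 * k < finrank K V) :
    ∃ z, (∀ i, f z (a i) = 0) ∧ f z z ≠ 0 := by
  by_contra hcon
  push Not at hcon
  let L : V →ₗ[K] (Fin k → K) := LinearMap.pi (fun i => hf.dual (a i))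
  have hmem : ∀ z, z ∈ LinearMap.ker L ↔ ∀ i, f z (a i) = 0 := by
    intro z
    rw [LinearMap.mem_ker]
    constructor
    · intro h i
      have := congrFun h i
      simpa [L] using this
    · intro h
      ext i
      simpa [L] using h i
  have h1 : LinearMap.ker L ≤ Submodule.span K (Set.range a) := by
    intro w hw
    apply hf.mem_span_of_perp a
    intro z hz
    exact hf.polarize (Z := LinearMap.ker L) (fun z hz => hcon z ((hmem z).1 hz)) ((hmem z).2 hz) hw
  have h2 : finrank K (LinearMap.ker L) ≤ k := by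
    refine (Submodule.finrank_mono h1).trans ?_
    have := finrank_range_le_card (R := K) a
    rw [Fintype.card_fin] at this
    exact this
  have h3 := LinearMap.finrank_range_add_finrank_ker L
  have h4 : finrank K (LinearMap.range L) ≤ k := by
    simpa using Submodule.finrank_le (LinearMap.range L)
  omega

variable (hN : ∀ a, σ a = a → ∃ l, l * σ l = a)
include hN

/-- A vector orthogonal to the `a i` is a sum of two isotropic vectors orthogonal to the `a i`. -/
lemma exists_iso_decomp {k : ℕ} (a : Fin k → V) (hk : 2 * (k + 1) < finrank K V) (y : V)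
    (hy : ∀ i, f y (a i) = 0) :
    ∃ e₁ e₂, f e₁ e₁ = 0 ∧ f e₂ e₂ = 0 ∧ (∀ i, f e₁ (a i) = 0) ∧ (∀ i, f e₂ (a i) = 0) ∧
      y = e₁ + e₂ := by
  by_cases hyy : f y y = 0
  · exact ⟨y, 0, hyy, hf.zero_left 0, hy, fun i => hf.zero_left _, by simp⟩
  obtain ⟨z, hz, hzz⟩ := hf.exists_perp_aniso (Fin.cons y a : Fin (k + 1) → V) hk
  have hzy : f z y = 0 := by simpa using hz 0
  have hza : ∀ i, f z (a i) = 0 := fun i => by simpa using hz i.succ
  have hyz : f y z = 0 := hf.eq_zero_comm.1 hzy
  obtain ⟨l, hl⟩ := hN (- f y y / f z z) (by rw [map_div₀, map_neg, hf.self_fixed, hf.self_fixed])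
  have hee : f (y + l • z) (y + l • z) = 0 := by
    rw [hf.add_left, hf.add_right, hf.add_right, hf.smul_left, hf.smul_left, hf.smul_right,
      hf.smul_right, hzy, hyz]
    have : l * (σ l * f z z) = - f y y := by
      rw [← mul_assoc, hl]; field_simp
    rw [this]; ring
  have hey : f (y + l • z) y = f y y := by
    rw [hf.add_left, hf.smul_left, hzy]; ring
  obtain ⟨t, ht⟩ := hf.exists_iso_adjust hee (by rw [hey]; exact hyy)
  refine ⟨y + t • (y + l • z), (-t) • (y + l • z), ht, ?_, ?_, ?_, by module⟩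
  · rw [hf.smul_left, hf.smul_right, hee]; ring
  · intro i
    rw [hf.add_left, hf.smul_left, hf.add_left, hf.smul_left, hy i, hza i]; ring
  · intro i
    rw [hf.smul_left, hf.add_left, hf.smul_left, hy i, hza i]; ring

/-- A non-zero isotropic vector orthogonal to the `a i`. -/
lemma exists_iso_perp {k : ℕ} (a : Fin k → V) (hk : k + 2 ≤ finrank K V) :
    ∃ z, z ≠ 0 ∧ f z z = 0 ∧ ∀ i, f z (a i) = 0 := by
  obtain ⟨z₁, hz₁0, hz₁⟩ := hf.exists_perp a (by omega)
  by_cases h1 : f z₁ z₁ = 0
  · exact ⟨z₁, hz₁0, h1, hz₁⟩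
  obtain ⟨z₂, hz₂0, hz₂⟩ := hf.exists_perp (Fin.cons z₁ a : Fin (k + 1) → V) (by omega)
  have h21 : f z₂ z₁ = 0 := by simpa using hz₂ 0
  have h2a : ∀ i, f z₂ (a i) = 0 := fun i => by simpa using hz₂ i.succ
  have h12 : f z₁ z₂ = 0 := hf.eq_zero_comm.1 h21
  by_cases h2 : f z₂ z₂ = 0
  · exact ⟨z₂, hz₂0, h2, h2a⟩
  obtain ⟨l, hl⟩ := hN (- f z₁ z₁ / f z₂ z₂)
    (by rw [map_div₀, map_neg, hf.self_fixed, hf.self_fixed])
  refine ⟨z₁ + l • z₂, ?_, ?_, ?_⟩
  · intro h0
    apply h1
    have : f (z₁ + l • z₂) z₁ = f z₁ z₁ := by rw [hf.add_left, hf.smul_left, h21]; ring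
    rw [← this, h0, hf.zero_left]
  · rw [hf.add_left, hf.add_right, hf.add_right, hf.smul_left, hf.smul_left, hf.smul_right,
      hf.smul_right, h21, h12]
    have : l * (σ l * f z₂ z₂) = - f z₁ z₁ := by
      rw [← mul_assoc, hl]; field_simp
    rw [this]; ring
  · intro i
    rw [hf.add_left, hf.smul_left, hz₁ i, h2a i]; ring

omit hN [FiniteDimensional K V] in
/-- An isotropic vector orthogonal neither to `a` nor to the isotropic vector `v`. -/
lemma exists_iso_both {a v : V} (ha : a ≠ 0) (hv0 : v ≠ 0) (hv : f v v = 0) :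
    ∃ z, f z z = 0 ∧ f a z ≠ 0 ∧ f v z ≠ 0 := by
  obtain ⟨z₀, -, h1, h2⟩ := exists_mem_ne_zero_both (⊤ : Submodule K V) (hf.dual a) (hf.dual v)
    (by obtain ⟨x, hx⟩ := hf.nondeg a ha; exact ⟨x, trivial, hx⟩)
    (by obtain ⟨x, hx⟩ := hf.nondeg v hv0; exact ⟨x, trivial, hx⟩)
  rw [dual_apply] at h1 h2
  have h1' : f a z₀ ≠ 0 := hf.ne_zero_comm.1 h1
  have h2' : f v z₀ ≠ 0 := hf.ne_zero_comm.1 h2
  obtain ⟨t, ht⟩ := hf.exists_iso_adjust hv h2'
  have hvz : ∀ s : K, f v (z₀ + s • v) = f v z₀ := by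
    intro s
    rw [hf.add_right, hf.smul_right, hv]; ring
  by_cases h3 : f a (z₀ + t • v) = 0
  · obtain ⟨κ, hκ0, hκ⟩ := exists_kappa hf.ne_id hf.invol
    refine ⟨z₀ + (t + κ / f v z₀) • v, ?_, ?_, by rw [hvz]; exact h2'⟩
    · rw [hf.self_add_smul _ _ _ hv] at ht ⊢
      have e : (t + κ / f v z₀) * f v z₀ = t * f v z₀ + κ := by field_simp
      rw [e, map_add, hκ]
      linear_combination ht
    · have hav : f a v ≠ 0 := by
        intro h0
        rw [hf.add_right, hf.smul_right, h0] at h3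
        apply h1'
        linear_combination h3
      rw [hf.add_right, hf.smul_right] at h3 ⊢
      rw [map_add, add_mul, ← add_assoc, h3, zero_add]
      refine mul_ne_zero ?_ hav
      rw [map_ne_zero]
      exact div_ne_zero hκ0 h2'
  · exact ⟨z₀ + t • v, ht, h3, by rw [hvz]; exact h2'⟩

end findim

/-! ### Transvections -/

/-- The transvection `x ↦ x + f(x, w) u`, for `f(u, w) = 0`. -/
def tv (u w : V) (h : f u w = 0) : V ≃ₗ[K] V :=
  LinearEquiv.transvection (f := hf.dual w) (v := u) (show hf.dual w u = 0 from h)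

@[simp] lemma tv_apply (u w : V) (h : f u w = 0) (x : V) : hf.tv u w h x = x + f x w • u := by
  rw [tv, LinearEquiv.transvection.apply]
  rfl

lemma tv_inv (u w : V) (h : f u w = 0) :
    (hf.tv u w h)⁻¹ = hf.tv u (-w) (by rw [hf.neg_right, h, neg_zero]) := by
  rw [inv_eq_iff_mul_eq_one]
  ext x
  simp only [LinearEquiv.mul_apply, tv_apply, hf.add_left, hf.smul_left, hf.neg_right, h,
    LinearEquiv.coe_one, id_eq]
  module

lemma tv_add_right (u w w' : V) (h : f u w = 0) (h' : f u w' = 0) :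
    hf.tv u w h * hf.tv u w' h' = hf.tv u (w + w') (by rw [hf.add_right, h, h', add_zero]) := by
  ext x
  simp only [LinearEquiv.mul_apply, tv_apply, hf.add_left, hf.smul_left, hf.add_right, h]
  module

lemma tv_add_left (u u' w : V) (h : f u w = 0) (h' : f u' w = 0) :
    hf.tv u w h * hf.tv u' w h' = hf.tv (u + u') w (by rw [hf.add_left, h, h', add_zero]) := by
  ext x
  simp only [LinearEquiv.mul_apply, tv_apply, hf.add_left, hf.smul_left, h']
  module

lemma tv_comm (u w u' w' : V) (h : f u w = 0) (h' : f u' w' = 0) (h'' : f u w' = 0) :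
    hf.tv u w h * hf.tv u' w' h' * (hf.tv u w h)⁻¹ * (hf.tv u' w' h')⁻¹ =
      hf.tv u (σ (f u' w) • w') (by rw [hf.smul_right, h'', mul_zero]) := by
  rw [tv_inv, tv_inv]
  ext x
  simp only [LinearEquiv.mul_apply, tv_apply, hf.add_left, hf.smul_left, hf.neg_right,
    hf.smul_right, hf.invol, h, h', h'']
  module

lemma tv_zero_left (w : V) : hf.tv 0 w (hf.zero_left w) = 1 := by
  ext x; simp

lemma tv_det (u w : V) (h : f u w = 0) : LinearEquiv.det (hf.tv u w h) = 1 :=
  LinearEquiv.transvection.det_eq_one _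

/-- Unitary transvections are isometries. -/
lemma tv_isometry {v : V} {c : K} (hv : f v v = 0) (hc : σ c = -c) (h : f v (c • v) = 0) (x y : V) :
    f (hf.tv v (c • v) h x) (hf.tv v (c • v) h y) = f x y := by
  simp only [tv_apply, hf.add_left, hf.add_right, hf.smul_left, hf.smul_right, hv, map_mul, hf.invol]
  rw [← hf.herm v y, hc]
  ring

lemma conj_tv (g : V ≃ₗ[K] V) (u w w' : V) (h : f u w = 0) (hw' : ∀ x, f x w' = f (g.symm x) w) :
    g * hf.tv u w h * g⁻¹ = hf.tv (g u) w' (by rw [hw']; simpa using h) := by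
  ext x
  simp [LinearEquiv.mul_apply, hw']

end HForm

end Cfsg.Agent.Lib.Helper95
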