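import Cfsg.Agent.Lib.Helper95.OmSieg

set_option autoImplicit false
set_option linter.unusedSimpArgs false

namespace Cfsg.Agent.Lib.Helper95

open QuadraticMap Module Cfsg.Agent.Lib.Helper49
open scoped commutatorElement

section gen

variable {F V : Type*} [Field F] [AddCommGroup V] [Module F V] {Q : QuadraticForm F V}

lemma qsep (hnd : (polarBilin Q).Nondegenerate) {k : ℕ} (x : Fin k → V) {w : V}
    (hw : w ∉ Submodule.span F (Set.range x)) :
    ∃ z, (∀ i, polar Q z (x i) = 0) ∧ polar Q z w = 1 := by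
  by_contra hcon
  push Not at hcon
  apply hw
  apply smem_span_of_perp (B := polarBilin Q) hnd x
  intro z hz
  by_contra h0
  change polar Q z w ≠ 0 at h0
  apply hcon ((polar Q z w)⁻¹ • z)
  · intro i
    have : polar Q z (x i) = 0 := hz i
    rw [polar_smul_left, this]; simp
  · rw [polar_smul_left, smul_eq_mul, inv_mul_cancel₀ h0]

lemma qsep1 (hnd : (polarBilin Q).Nondegenerate) {x w : V} (hw : ∀ c : F, w ≠ c • x) :
    ∃ z, polar Q z x = 0 ∧ polar Q z w = 1 := by
  obtain ⟨z, h1, h2⟩ := qsep hnd ![x] (w := w) (by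
    intro h
    obtain ⟨c, hc⟩ := (Submodule.mem_span_range_iff_exists_fun F).1 h
    simp only [Fin.sum_univ_one, Matrix.cons_val_zero, Fin.isValue] at hc
    exact hw (c 0) hc.symm)
  exact ⟨z, h1 0, h2⟩

lemma qsep2 (hnd : (polarBilin Q).Nondegenerate) {x y w : V} (hw : ∀ c d : F, w ≠ c • x + d • y) :
    ∃ z, polar Q z x = 0 ∧ polar Q z y = 0 ∧ polar Q z w = 1 := by
  obtain ⟨z, h1, h2⟩ := qsep hnd ![x, y] (w := w) (by
    intro h
    obtain ⟨c, hc⟩ := (Submodule.mem_span_range_iff_exists_fun F).1 h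
    simp only [Fin.sum_univ_two, Matrix.cons_val_zero, Matrix.cons_val_one, Fin.isValue] at hc
    exact hw (c 0) (c 1) hc.symm)
  exact ⟨z, h1 0, h1 1, h2⟩

lemma qexists_perp_pair [FiniteDimensional F V] (hnd : (polarBilin Q).Nondegenerate) {k : ℕ}
    (a : Fin k → V) (hk : 2 * k < finrank F V) :
    ∃ z z', (∀ i, polar Q z (a i) = 0) ∧ (∀ i, polar Q z' (a i) = 0) ∧ polar Q z z' = 1 := by
  by_contra hcon
  push Not at hcon
  have hcon' : ∀ z z', (∀ i, polar Q z (a i) = 0) → (∀ i, polar Q z' (a i) = 0) →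
      polar Q z z' = 0 := by
    intro z z' hz hz'
    by_contra h0
    apply hcon ((polar Q z z')⁻¹ • z) z' _ hz'
    · rw [polar_smul_left, smul_eq_mul, inv_mul_cancel₀ h0]
    · intro i
      rw [polar_smul_left, hz i]; simp
  let B : LinearMap.BilinForm F V := polarBilin Q
  let L : V →ₗ[F] (Fin k → F) := LinearMap.pi (fun i => B.flip (a i))
  have hmem : ∀ z, z ∈ LinearMap.ker L ↔ ∀ i, polar Q z (a i) = 0 := by
    intro z
    rw [LinearMap.mem_ker]
    constructor
    · intro h i
      have := congrFun h i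
      simpa [L, B] using this
    · intro h
      ext i
      simpa [L, B] using h i
  have h1 : LinearMap.ker L ≤ Submodule.span F (Set.range a) := by
    intro w hw
    apply smem_span_of_perp (B := B) hnd a
    intro z hz
    exact hcon' z w (fun i => hz i) ((hmem w).1 hw)
  have h2' : finrank F (LinearMap.ker L) ≤ k := by
    refine (Submodule.finrank_mono h1).trans ?_
    have := finrank_range_le_card (R := F) a
    rw [Fintype.card_fin] at this
    exact this
  have h3 := LinearMap.finrank_range_add_finrank_ker L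
  have h4 : finrank F (LinearMap.range L) ≤ k := by
    simpa using Submodule.finrank_le (LinearMap.range L)
  omega

/-- a hyperbolic pair orthogonal to `k` given vectors -/
lemma qexists_hyp [Fintype F] [FiniteDimensional F V] (hnd : (polarBilin Q).Nondegenerate) {k : ℕ}
    (a : Fin k → V) (hk : 2 * (k + 3) < finrank F V) :
    ∃ b f, Q b = 0 ∧ Q f = 0 ∧ polar Q b f = 1 ∧ (∀ i, polar Q b (a i) = 0) ∧
      (∀ i, polar Q f (a i) = 0) := by
  obtain ⟨z, z', hz, hz', hzz⟩ := qexists_perp_pair hnd a (by omega)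
  obtain ⟨e, he, heq⟩ := qexists_perp_norm Q hnd
    (Fin.cons z (Fin.cons z' a) : Fin (k + 1 + 1) → V) (by omega) (-Q z)
  have hez : polar Q e z = 0 := by simpa using he 0
  have hez' : polar Q e z' = 0 := by simpa using he 1
  have hea : ∀ i, polar Q e (a i) = 0 := fun i => by simpa using he i.succ.succ
  have hQb : Q (z + e) = 0 := by rw [qmap_add, heq, polar_comm, hez]; ring
  have hbz' : polar Q (z + e) z' = 1 := by rw [polar_add_left, hzz, hez', add_zero]
  have hba : ∀ i, polar Q (z + e) (a i) = 0 := fun i => by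
    rw [polar_add_left, hz i, hea i, add_zero]
  refine ⟨z + e, z' - Q z' • (z + e), hQb, ?_, ?_, hba, ?_⟩
  · rw [qmap_sub, QuadraticMap.map_smul, hQb, polar_smul_right, polar_comm, hbz']
    simp
  · rw [polar_sub_right, polar_smul_right, hbz', polar_self_of_Q hQb]; simp
  · intro i
    rw [polar_sub_left, polar_smul_left, hz' i, hba i]; simp

lemma qexists_perp3' [Fintype F] [FiniteDimensional F V] (hnd : (polarBilin Q).Nondegenerate)
    (hd : 8 < finrank F V) (x y z : V) (δ : F) :
    ∃ e, Q e = δ ∧ polar Q e x = 0 ∧ polar Q e y = 0 ∧ polar Q e z = 0 := by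
  obtain ⟨e, h1, h2⟩ := qexists_perp_norm Q hnd ![x, y, z] (by omega) δ
  exact ⟨e, h2, h1 0, h1 1, h1 2⟩

theorem sg_mem_commutator [Fintype F] [FiniteDimensional F V] (hQ : (polarBilin Q).Nondegenerate)
    (hd : 10 < finrank F V) {u v : V} (h : SPair Q u v) : sg h ∈ commutator (OG Q) := by
  obtain ⟨b, f, hb, hf, hbf, hba, hfa⟩ := qexists_hyp hQ ![u, v] (by omega)
  have hbu : polar Q b u = 0 := hba 0
  have hbv : polar Q b v = 0 := hba 1
  have hfu : polar Q f u = 0 := hfa 0
  have hfv : polar Q f v = 0 := hfa 1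
  have h₁ : SPair Q u b := ⟨h.qu, hb, by rw [polar_comm]; exact hbu⟩
  have h₂ : SPair Q v f := ⟨h.qv, hf, by rw [polar_comm]; exact hfv⟩
  rw [sg_commutator h₁ h₂ h.vu (by rw [polar_comm]; exact hbv) hfu (by rw [polar_comm]; exact hbf) h,
    commutator_def]
  exact Subgroup.commutator_mem_commutator (Subgroup.mem_top _) (Subgroup.mem_top _)

lemma exists_sg_map [Fintype F] [FiniteDimensional F V] (hQ : (polarBilin Q).Nondegenerate)
    (hd : 8 < finrank F V) {a w : V} (ha : Q a ≠ 0) (hw : Q w = 0) (haw : polar Q a w = 0) :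
    ∃ u, ∃ h : SPair Q u w, (sg h).1 a = a + w := by
  obtain ⟨z, hzw, hza⟩ := qsep1 hQ (x := w) (w := a) (by
    rintro c rfl
    rw [QuadraticMap.map_smul, hw] at ha
    simp at ha)
  obtain ⟨e, heq, hew, hea, hez⟩ := qexists_perp3' hQ hd w a z (-Q z)
  have hs : SPair Q (z + e) w :=
    ⟨by rw [qmap_add, heq, polar_comm, hez]; ring, hw, by rw [polar_add_left, hzw, hew, add_zero]⟩
  refine ⟨z + e, hs, ?_⟩
  rw [sg_apply, polar_add_left, hza, hea, polar_comm Q w a, haw]
  simp

/-- a subgroup containing all long root elements is transitive on vectors of a given norm -/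
lemma exists_map_of_sg [Fintype F] [FiniteDimensional F V] (hQ : (polarBilin Q).Nondegenerate)
    (hd : 8 < finrank F V) (N : Subgroup (OG Q)) (hN : ∀ (u v : V) (h : SPair Q u v), sg h ∈ N)
    {a b : V} (ha : Q a ≠ 0) (hab : Q a = Q b) : ∃ κ ∈ N, κ.1 a = b := by
  have T1 : ∀ a b : V, Q a ≠ 0 → Q a = Q b → Q (b - a) = 0 → ∃ κ ∈ N, κ.1 a = b := by
    intro a b ha hab hw
    have haw : polar Q a (b - a) = 0 := by
      have e1 : Q b = Q (a + (b - a)) := by rw [add_sub_cancel]
      rw [qmap_add, hw, ← hab] at e1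
      linear_combination -e1
    obtain ⟨u, h, hu⟩ := exists_sg_map hQ hd ha hw haw
    exact ⟨sg h, hN _ _ h, by rw [hu, add_sub_cancel]⟩
  have T2 : ∀ a b : V, Q a ≠ 0 → Q a = Q b → (∀ c : F, b ≠ c • a) → ∃ κ ∈ N, κ.1 a = b := by
    intro a b ha hab hb
    obtain ⟨z, hza, hzb⟩ := qsep1 hQ hb
    set γ := Q (b - a) with hγ
    obtain ⟨e, heq, hea, heb, hez⟩ := qexists_perp3' hQ hd a b z (-Q (γ • z))
    set w₁ := γ • z + e with hw₁
    have hQw : Q w₁ = 0 := by
      rw [hw₁, qmap_add, heq, polar_smul_left, polar_comm Q z e, hez]; simp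
    have haw : polar Q a w₁ = 0 := by
      rw [hw₁, polar_add_right, polar_smul_right, polar_comm Q a z, hza, polar_comm Q a e, hea]
      simp
    have hbw : polar Q b w₁ = γ := by
      rw [hw₁, polar_add_right, polar_smul_right, polar_comm Q b z, hzb, polar_comm Q b e, heb]
      simp
    have hQc : Q (a + w₁) = Q a := by rw [qmap_add, hQw, haw]; ring
    obtain ⟨κ₁, hκ₁, h1⟩ := T1 a (a + w₁) ha hQc.symm (by rw [add_sub_cancel_left]; exact hQw)
    obtain ⟨κ₂, hκ₂, h2⟩ := T1 (a + w₁) b (by rw [hQc]; exact ha) (by rw [hQc]; exact hab) (by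
      have e1 : b - (a + w₁) = (b - a) - w₁ := by abel
      rw [e1, qmap_sub, hQw, polar_sub_left, hbw, haw, ← hγ]; ring)
    exact ⟨κ₂ * κ₁, N.mul_mem hκ₂ hκ₁, by
      rw [Subgroup.coe_mul, LinearEquiv.mul_apply, h1, h2]⟩
  by_cases hb : ∀ c : F, b ≠ c • a
  · exact T2 a b ha hab hb
  · push Not at hb
    obtain ⟨l, rfl⟩ := hb
    have ha0 : a ≠ 0 := by rintro rfl; simp at ha
    obtain ⟨w, hw0, hwq, hwp⟩ := quniv Q hQ (by omega) ha0 0 0
    have hQc : Q (a + w) = Q a := by rw [qmap_add, hwq, hwp]; ring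
    obtain ⟨κ₁, hκ₁, h1⟩ := T1 a (a + w) ha hQc.symm (by rw [add_sub_cancel_left]; exact hwq)
    obtain ⟨κ₂, hκ₂, h2⟩ := T2 (a + w) (l • a) (by rw [hQc]; exact ha) (by rw [hQc]; exact hab) (by
      intro c hc
      have e1 : (l - c) • a = c • w := by
        rw [sub_smul, hc, smul_add]; abel
      have e2 := congrArg Q e1
      rw [QuadraticMap.map_smul, QuadraticMap.map_smul, hwq] at e2
      simp only [smul_eq_mul, mul_zero, mul_eq_zero, or_self] at e2
      have hlc : l - c = 0 := e2.resolve_right ha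
      rw [hlc, zero_smul] at e1
      have hc0 : c = 0 := (smul_eq_zero.1 e1.symm).resolve_right hw0
      have hl0 : l = 0 := by rw [hc0, sub_zero] at hlc; exact hlc
      rw [hl0, zero_smul, map_zero] at hab
      exact ha hab)
    exact ⟨κ₂ * κ₁, N.mul_mem hκ₂ hκ₁, by
      rw [Subgroup.coe_mul, LinearEquiv.mul_apply, h1, h2]⟩

/-- `Ω` is contained in every subgroup containing all long root elements. -/
theorem commutator_le_of_sg [Fintype F] [FiniteDimensional F V]
    (hQ : (polarBilin Q).Nondegenerate) (hd : 8 < finrank F V) (M : Subgroup (OG Q))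
    (hM : ∀ (u v : V) (h : SPair Q u v), sg h ∈ M) : commutator (OG Q) ≤ M := by
  set N : Subgroup (OG Q) := Subgroup.normalClosure {g | ∃ (u v : V) (h : SPair Q u v), g = sg h}
    with hN
  have hNM : N ≤ M := by
    rw [hN, Subgroup.normalClosure, Subgroup.closure_le]
    intro x hx
    rw [Group.mem_conjugatesOfSet_iff] at hx
    obtain ⟨y, ⟨u, v, h, rfl⟩, hc⟩ := hx
    obtain ⟨c, hc⟩ := isConj_iff.1 hc
    rw [← hc, sg_conj]
    exact hM _ _ _
  refine commutator_le_of_pairs Q hQ (Or.inr (by omega)) M ?_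
  intro a b ha hab
  obtain ⟨κ, hκ, rfl⟩ := exists_map_of_sg hQ hd N
    (fun u v h => Subgroup.subset_normalClosure ⟨u, v, h, rfl⟩) ha hab
  apply hNM
  have e1 : refl Q a * refl Q (κ.1 a) = (refl Q a * κ * (refl Q a)⁻¹) * κ⁻¹ := by
    rw [← refl_conj, refl_inv]; group
  rw [e1]
  have hnorm : N.Normal := Subgroup.normalClosure_normal
  exact N.mul_mem (hnorm.conj_mem κ hκ _) (N.inv_mem hκ)

end gen

end Cfsg.Agent.Lib.Helper95
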