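import Cfsg.Agent.Lib.Helper95.Glue3

set_option autoImplicit false

namespace Cfsg.Agent.Lib.Helper95

open Matrix Module

variable {ι : Type} [Fintype ι] [DecidableEq ι] {F : Type*} [Field F]

lemma toLin'_glEquiv_symm (e : (ι → F) ≃ₗ[F] (ι → F)) :
    Matrix.toLin' ((glEquiv.symm e : Matrix.GeneralLinearGroup ι F) : Matrix ι ι F)
      = (e : (ι → F) →ₗ[F] (ι → F)) := by
  apply LinearMap.ext
  intro x
  rw [Matrix.toLin'_apply, glEquiv_symm_mulVec, LinearEquiv.coe_coe]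

lemma mem_toLinGrp_decompositionStabilizer {t : ℕ} (D : Fin t → Submodule F (ι → F))
    (e : (ι → F) ≃ₗ[F] (ι → F)) :
    e ∈ toLinGrp (Cfsg.Geo.decompositionStabilizer D) ↔
      ∃ σ : Equiv.Perm (Fin t), ∀ i, (D i).map (e : (ι → F) →ₗ[F] (ι → F)) = D (σ i) := by
  rw [mem_toLinGrp]
  change (∃ σ : Equiv.Perm (Fin t), ∀ i, (D i).map (Matrix.toLin' _) = D (σ i)) ↔ _
  rw [toLin'_glEquiv_symm]

lemma exists_ne_zero_one_of_card [Fintype F] (h : Fintype.card F ≠ 2) :
    ∃ l : F, l ≠ 0 ∧ l ≠ 1 := by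
  classical
  have h1 : 1 < Fintype.card F := Fintype.one_lt_card
  have h2 : ({0, 1} : Finset F).card < (Finset.univ : Finset F).card := by
    rw [Finset.card_univ]
    have : ({0, 1} : Finset F).card ≤ 2 := Finset.card_le_two
    omega
  obtain ⟨l, _, hl⟩ := Finset.exists_mem_notMem_of_card_lt_card h2
  simp only [Finset.mem_insert, Finset.mem_singleton, not_or] at hl
  exact ⟨l, hl.1, hl.2⟩

end Cfsg.Agent.Lib.Helper95
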