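import Cfsg.Agent.Lib.Helper95.Glue2

set_option autoImplicit false

namespace Cfsg.Agent.Lib.Helper95

open Matrix Module

variable {ι : Type} [Fintype ι] [DecidableEq ι] {F : Type*} [Field F]

/-- A bilinear form given as a function, as a `BilinForm`. -/
def bilinOf (f : (ι → F) → (ι → F) → F) (hf : Cfsg.Geo.IsBilinearForm f) :
    LinearMap.BilinForm F (ι → F) :=
  LinearMap.mk₂ F f hf.add_left hf.smul_left hf.add_right hf.smul_right

omit [Fintype ι] [DecidableEq ι] in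
@[simp] lemma bilinOf_apply (f : (ι → F) → (ι → F) → F) (hf : Cfsg.Geo.IsBilinearForm f)
    (u v : ι → F) : bilinOf f hf u v = f u v := rfl

omit [Fintype ι] [DecidableEq ι] in
lemma bilinOf_nondegenerate (f : (ι → F) → (ι → F) → F) (hf : Cfsg.Geo.IsBilinearForm f)
    (hnd : Cfsg.Geo.IsNondegenerateForm f) : (bilinOf f hf).Nondegenerate := by
  constructor
  · intro x hx
    by_contra hx0
    obtain ⟨_, ⟨y, hy⟩⟩ := hnd x hx0
    exact hy (hx y)
  · intro x hx
    by_contra hx0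
    obtain ⟨⟨y, hy⟩, _⟩ := hnd x hx0
    exact hy (hx y)

lemma mem_toLinGrp_similarityGroup (f : (ι → F) → (ι → F) → F) (e : (ι → F) ≃ₗ[F] (ι → F)) :
    e ∈ toLinGrp (Cfsg.Geo.similarityGroup f) ↔
      ∃ c : Fˣ, ∀ u v, f (e u) (e v) = (c : F) * f u v := by
  rw [mem_toLinGrp]
  change (∃ c : Fˣ, ∀ u v, f (Matrix.mulVec _ u) (Matrix.mulVec _ v) = (c : F) * f u v) ↔ _
  simp only [glEquiv_symm_mulVec]

end Cfsg.Agent.Lib.Helper95
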