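import Cfsg.Agent.Lib.Helper49.CDEvenMain
import Cfsg.Agent.Lib.Helper49.WittUse

set_option autoImplicit false
set_option linter.unusedSimpArgs false

namespace Cfsg.Agent.Lib.Helper95

open QuadraticMap Module Cfsg.Agent.Lib.Helper49

section gen

variable {F V : Type*} [Field F] [AddCommGroup V] [Module F V] (Q : QuadraticForm F V)

theorem refl_of_Q_eq_zero {v : V} (hv : Q v = 0) : refl Q v = 1 := by
  apply Subtype.ext
  ext x
  simp [reflLin_apply, hv]

/-- products of two reflections in vectors of the same norm -/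
def pairSet : Set (OG Q) := {g | ∃ a b, Q a ≠ 0 ∧ Q a = Q b ∧ g = refl Q a * refl Q b}

/-- A subgroup containing all products of two reflections of equal norm contains `Ω`. -/
theorem commutator_le_of_pairs [Fintype F] [FiniteDimensional F V]
    (hQ : (polarBilin Q).Nondegenerate) (h : Fintype.card F ≠ 2 ∨ finrank F V ≠ 4)
    (M : Subgroup (OG Q)) (hM : ∀ a b, Q a ≠ 0 → Q a = Q b → refl Q a * refl Q b ∈ M) :
    commutator (OG Q) ≤ M := by
  set N : Subgroup (OG Q) := Subgroup.normalClosure (pairSet Q) with hN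
  have hNM : N ≤ M := by
    rw [hN, Subgroup.normalClosure, Subgroup.closure_le]
    intro x hx
    rw [Group.mem_conjugatesOfSet_iff] at hx
    obtain ⟨y, ⟨a, b, ha, hab, rfl⟩, hc⟩ := hx
    obtain ⟨c, hc⟩ := isConj_iff.1 hc
    rw [← hc]
    have : c * (refl Q a * refl Q b) * c⁻¹ = refl Q (c.1 a) * refl Q (c.1 b) := by
      rw [← refl_conj, ← refl_conj]; group
    rw [this]
    exact hM _ _ (by rw [OG_apply]; exact ha) (by rw [OG_apply, OG_apply]; exact hab)
  refine le_trans ?_ hNM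
  have hcomm : ∀ a b : V,
      Commute (QuotientGroup.mk' N (refl Q a)) (QuotientGroup.mk' N (refl Q b)) := by
    intro a b
    by_cases hb : Q b = 0
    · rw [refl_of_Q_eq_zero Q hb, map_one]; exact Commute.one_right _
    · change _ * _ = _ * _
      rw [← map_mul, ← map_mul]
      apply (QuotientGroup.eq).2
      have h1 : (refl Q a * refl Q b)⁻¹ * (refl Q b * refl Q a)
          = refl Q b * refl Q ((refl Q a).1 b) := by
        rw [← refl_conj, mul_inv_rev, refl_inv, refl_inv]; group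
      rw [h1]
      apply Subgroup.subset_normalClosure
      exact ⟨b, _, hb, by rw [OG_apply], rfl⟩
  have hall : ∀ x y : OG Q ⧸ N, x * y = y * x := by
    intro x y
    obtain ⟨g, rfl⟩ := QuotientGroup.mk'_surjective N x
    obtain ⟨k, rfl⟩ := QuotientGroup.mk'_surjective N y
    obtain ⟨vs, -, rfl⟩ := exists_reflProd_eq_finite Q hQ h g
    obtain ⟨ws, -, rfl⟩ := exists_reflProd_eq_finite Q hQ h k
    unfold reflProd
    rw [map_list_prod, map_list_prod]
    apply Commute.list_prod_left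
    intro x hx
    apply Commute.list_prod_right
    intro y hy
    simp only [List.mem_map] at hx hy
    obtain ⟨_, ⟨a, _, rfl⟩, rfl⟩ := hx
    obtain ⟨_, ⟨b, _, rfl⟩, rfl⟩ := hy
    exact hcomm a b
  exact Subgroup.Normal.quotient_commutative_iff_commutator_le.1 ⟨⟨hall⟩⟩

end gen

/-! ### The closure engine -/

section engine

variable {F V : Type*} [Field F] [AddCommGroup V] [Module F V] (Q : QuadraticForm F V)

/-- Hypotheses of the reflection engine. -/
structure Eng (M : Subgroup (OG Q)) (S : V → Prop) : Prop where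
  ns : ∀ a, S a → Q a ≠ 0
  pair : ∀ a b, S a → S b → Q a = Q b → refl Q a * refl Q b ∈ M
  refl_closed : ∀ a b, S a → S b → S (reflLin Q a b)
  smul_closed : ∀ (c : F) a, c ≠ 0 → S a → S (c • a)
  rich : ∀ (x y : V) (δ : F), δ ≠ 0 → ∃ c, S c ∧ Q c = δ ∧ polar Q c x = 0 ∧ polar Q c y = 0
  a2 : ∀ y, Q y ≠ 0 → ¬ S y → ∃ d, S d ∧ Q d = Q y ∧ polar Q d y = Q y

/-- The closure set. -/
def CC (M : Subgroup (OG Q)) (S : V → Prop) (x : V) : Prop :=
  Q x ≠ 0 ∧ ∃ a, S a ∧ Q a = Q x ∧ refl Q x * refl Q a ∈ M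

variable {Q} {M : Subgroup (OG Q)} {S : V → Prop}

theorem Eng.CC_of_S (E : Eng Q M S) {a : V} (ha : S a) : CC Q M S a :=
  ⟨E.ns a ha, a, ha, rfl, by rw [refl_mul_self]; exact M.one_mem⟩

theorem Eng.CC_pair (E : Eng Q M S) {x y : V} (hx : CC Q M S x) (hy : CC Q M S y)
    (h : Q x = Q y) : refl Q x * refl Q y ∈ M := by
  obtain ⟨-, a, ha, hax, hxa⟩ := hx
  obtain ⟨-, b, hb, hby, hyb⟩ := hy
  have h1 := E.pair a b ha hb (by rw [hax, hby, h])
  have h2 : refl Q x * refl Q y
      = (refl Q x * refl Q a) * (refl Q a * refl Q b) * (refl Q y * refl Q b)⁻¹ := by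
    rw [mul_inv_rev, refl_inv, refl_inv]
    have e1 := refl_mul_self Q a
    have e2 := refl_mul_self Q b
    calc refl Q x * refl Q y = refl Q x * (refl Q a * refl Q a) * (refl Q b * refl Q b) * refl Q y := by
          rw [e1, e2]; group
      _ = _ := by group
  rw [h2]
  exact M.mul_mem (M.mul_mem hxa h1) (M.inv_mem hyb)

theorem Eng.CC_smul (E : Eng Q M S) {x : V} (hx : CC Q M S x) {c : F} (hc : c ≠ 0) :
    CC Q M S (c • x) := by
  obtain ⟨h0, a, ha, hax, hxa⟩ := hx
  refine ⟨?_, c • a, E.smul_closed c a hc ha, ?_, ?_⟩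
  · rw [QuadraticMap.map_smul]; exact mul_ne_zero (mul_ne_zero hc hc) h0
  · rw [QuadraticMap.map_smul, QuadraticMap.map_smul, hax]
  · rw [refl_smul Q _ hc, refl_smul Q _ hc]; exact hxa

/-- conjugation formula -/
theorem refl_map (g : OG Q) (v : V) : refl Q (g.1 v) = g * refl Q v * g⁻¹ := (refl_conj Q g v).symm

theorem Eng.CC_S_refl (E : Eng Q M S) {a x : V} (ha : S a) (hx : CC Q M S x) :
    CC Q M S (reflLin Q a x) := by
  obtain ⟨h0, b, hb, hbx, hxb⟩ := hx
  obtain ⟨a₁, ha₁, hq, hp, -⟩ := E.rich x x (Q a) (E.ns a ha)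
  have hh : refl Q a * refl Q a₁ ∈ M := E.pair a a₁ ha ha₁ hq.symm
  set k : OG Q := refl Q a * refl Q a₁ with hk
  have hkx : k.1 x = reflLin Q a x := by
    simp only [hk, Subgroup.coe_mul, LinearEquiv.mul_apply, refl_coe_apply]
    rw [reflLin_of_polar_eq_zero Q a₁ x hp]
  have hkb : k.1 b = reflLin Q a (reflLin Q a₁ b) := by
    simp only [hk, Subgroup.coe_mul, LinearEquiv.mul_apply, refl_coe_apply]
  refine ⟨by rw [Q_reflLin]; exact h0, k.1 b, ?_, ?_, ?_⟩
  · rw [hkb]; exact E.refl_closed _ _ ha (E.refl_closed _ _ ha₁ hb)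
  · rw [OG_apply, Q_reflLin, hbx]
  · rw [← hkx, refl_map, refl_map]
    have : k * refl Q x * k⁻¹ * (k * refl Q b * k⁻¹) = k * (refl Q x * refl Q b) * k⁻¹ := by group
    rw [this]
    exact M.mul_mem (M.mul_mem hh hxb) (M.inv_mem hh)

theorem Eng.CC_refl (E : Eng Q M S) {x z : V} (hx : CC Q M S x) (hz : CC Q M S z) :
    CC Q M S (reflLin Q x z) := by
  obtain ⟨hz0, a, ha, haz, hza⟩ := hz
  obtain ⟨c, hc, hcq, hcz, hca⟩ := E.rich z a (Q x) hx.1
  have hm : refl Q x * refl Q c ∈ M := E.CC_pair hx (E.CC_of_S hc) hcq.symm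
  set m : OG Q := refl Q x * refl Q c with hmdef
  have hmz : m.1 z = reflLin Q x z := by
    simp only [hmdef, Subgroup.coe_mul, LinearEquiv.mul_apply, refl_coe_apply]
    rw [reflLin_of_polar_eq_zero Q c z hcz]
  refine ⟨by rw [Q_reflLin]; exact hz0, a, ha, by rw [Q_reflLin, haz], ?_⟩
  rw [← hmz, refl_map]
  -- r_a m⁻¹ r_a = r_c r_{r_a x}
  have h1 : refl Q c * refl Q (reflLin Q a x) ∈ M :=
    E.CC_pair (E.CC_of_S hc) (E.CC_S_refl ha hx) (by rw [Q_reflLin, hcq])
  have hcomm : refl Q a * refl Q c = refl Q c * refl Q a := by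
    have : refl Q c = refl Q ((refl Q a).1 c) := by
      rw [refl_coe_apply, reflLin_of_polar_eq_zero Q a c (by rw [polar_comm]; exact hca)]
    have h2 : refl Q c = refl Q a * refl Q c * (refl Q a)⁻¹ := by
      rw [refl_conj]; exact this
    calc refl Q a * refl Q c = (refl Q a * refl Q c * (refl Q a)⁻¹) * refl Q a := by group
      _ = refl Q c * refl Q a := by rw [← h2]
  have h2 : refl Q (reflLin Q a x) = refl Q a * refl Q x * refl Q a := by
    have := refl_map (refl Q a) x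
    rw [refl_coe_apply, refl_inv] at this
    exact this
  have h3 : m * refl Q z * m⁻¹ * refl Q a
      = m * (refl Q z * refl Q a) * (refl Q c * refl Q (reflLin Q a x)) := by
    rw [h2, hmdef, mul_inv_rev, refl_inv, refl_inv]
    have e1 := refl_mul_self Q a
    calc refl Q x * refl Q c * refl Q z * (refl Q c * refl Q x) * refl Q a
        = refl Q x * refl Q c * refl Q z * (refl Q a * refl Q a) * refl Q c * refl Q x * refl Q a := by
          rw [e1]; group
      _ = refl Q x * refl Q c * refl Q z * refl Q a * (refl Q a * refl Q c) * refl Q x * refl Q a := by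
          group
      _ = _ := by rw [hcomm]; group
  rw [h3]
  exact M.mul_mem (M.mul_mem hm hza) h1

theorem Eng.CC_c (E : Eng Q M S) {g : OG Q} (hg : g ∈ M) {a d : V} (ha : S a) (hd : S d) :
    CC Q M S (reflLin Q (g.1 a) d) := by
  obtain ⟨d', hd', hdq, hdp, -⟩ := E.rich (g.1 a) (g.1 a) (Q d) (E.ns d hd)
  obtain ⟨c, hc, hcq, hc1, hc2⟩ := E.rich (g⁻¹.1 d) (g⁻¹.1 d') (Q a) (E.ns a ha)
  set m : OG Q := g * (refl Q a * refl Q c) * g⁻¹ with hmdef
  have hm : m ∈ M := M.mul_mem (M.mul_mem hg (E.pair a c ha hc hcq.symm)) (M.inv_mem hg)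
  have hgg : ∀ y, g.1 (g⁻¹.1 y) = y := by
    intro y
    have : (g * g⁻¹).1 y = y := by rw [mul_inv_cancel]; rfl
    simpa using this
  have key : ∀ y, polar Q c (g⁻¹.1 y) = 0 → m.1 y = reflLin Q (g.1 a) y := by
    intro y hy
    have h1 : m.1 y = g.1 (reflLin Q a (reflLin Q c (g⁻¹.1 y))) := by
      simp only [hmdef, Subgroup.coe_mul, LinearEquiv.mul_apply, refl_coe_apply]
    rw [h1, reflLin_of_polar_eq_zero Q c _ hy]
    have h2 : (refl Q (g.1 a)).1 y = (g * refl Q a * g⁻¹).1 y := by rw [refl_conj]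
    rw [refl_coe_apply] at h2
    rw [h2]
    simp only [Subgroup.coe_mul, LinearEquiv.mul_apply, refl_coe_apply]
  have hmd : m.1 d = reflLin Q (g.1 a) d := key d hc1
  have hmd' : m.1 d' = d' := by
    rw [key d' hc2, reflLin_of_polar_eq_zero Q _ _ (by rw [polar_comm]; exact hdp)]
  refine ⟨by rw [Q_reflLin]; exact E.ns d hd, d', hd', by rw [Q_reflLin, hdq], ?_⟩
  rw [← hmd]
  have h3 : refl Q (m.1 d) * refl Q d' = m * (refl Q d * refl Q d') * m⁻¹ := by
    conv_lhs => rw [← hmd']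
    rw [refl_map, refl_map]; group
  rw [h3]
  exact M.mul_mem (M.mul_mem hm (E.pair d d' hd hd' hdq.symm)) (M.inv_mem hm)

theorem Eng.CC_M_S (E : Eng Q M S) {g : OG Q} (hg : g ∈ M) {a : V} (ha : S a) :
    CC Q M S (g.1 a) := by
  by_cases hS : S (g.1 a)
  · exact E.CC_of_S hS
  have hy0 : Q (g.1 a) ≠ 0 := by rw [OG_apply]; exact E.ns a ha
  obtain ⟨d, hd, hdq, hdp⟩ := E.a2 _ hy0 hS
  set y := g.1 a with hy
  have he : CC Q M S (reflLin Q y d) := E.CC_c hg ha hd
  have he1 : reflLin Q y d = d - y := by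
    rw [reflLin_apply, polar_comm, hdp, inv_mul_cancel₀ hy0, one_smul]
  rw [he1] at he
  have h2 := E.CC_refl he (E.CC_of_S hd)
  have hQe : Q (d - y) = Q y := by
    have := Q_sub_smul Q d y 1
    simp only [one_smul, one_pow, one_mul] at this
    rw [this, polar_comm, hdp, hdq]; ring
  have hpe : polar Q (d - y) d = Q y := by
    rw [polar_sub_left, polar_self, polar_comm Q y d, hdp, hdq]
    simp only [nsmul_eq_mul]; push_cast; ring
  have h3 : reflLin Q (d - y) d = y := by
    rw [reflLin_apply, hQe, hpe, inv_mul_cancel₀ hy0, one_smul]; abel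
  rwa [h3] at h2

theorem Eng.CC_M (E : Eng Q M S) {g : OG Q} (hg : g ∈ M) {x : V} (hx : CC Q M S x) :
    CC Q M S (g.1 x) := by
  obtain ⟨h0, a, ha, hax, hxa⟩ := hx
  obtain ⟨-, b, hb, hbq, hgb⟩ := E.CC_M_S hg ha
  refine ⟨by rw [OG_apply]; exact h0, b, hb, by rw [hbq, OG_apply, OG_apply, hax], ?_⟩
  have : refl Q (g.1 x) * refl Q b
      = g * (refl Q x * refl Q a) * g⁻¹ * (refl Q (g.1 a) * refl Q b) := by
    rw [refl_map, refl_map]
    have e1 := refl_mul_self Q a
    calc g * refl Q x * g⁻¹ * refl Q b = g * refl Q x * (refl Q a * refl Q a) * g⁻¹ * refl Q b := by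
          rw [e1]; group
      _ = _ := by group
  rw [this]
  exact M.mul_mem (M.mul_mem (M.mul_mem hg hxa) (M.inv_mem hg)) hgb

theorem Eng.commutator_le [Fintype F] [FiniteDimensional F V] (E : Eng Q M S)
    (hQ : (polarBilin Q).Nondegenerate) (h : Fintype.card F ≠ 2 ∨ finrank F V ≠ 4)
    (hall : ∀ x, Q x ≠ 0 → CC Q M S x) : commutator (OG Q) ≤ M :=
  commutator_le_of_pairs Q hQ h M fun a b ha hab =>
    E.CC_pair (hall a ha) (hall b (hab ▸ ha)) hab

end engine

end Cfsg.Agent.Lib.Helper95
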