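import Cfsg.Agent.Lib.Helper95.Orth
import Cfsg.Agent.Lib.Helper95.OmGen

set_option autoImplicit false
set_option linter.unusedSimpArgs false

namespace Cfsg.Agent.Lib.Helper95

open QuadraticMap Module Cfsg.Agent.Lib.Helper49

/-- Binary diagonal forms over finite fields are universal (any characteristic). -/
lemma exists_sq_add_sq' {K : Type*} [Field K] [Fintype K]
    (α β δ : K) (hα : α ≠ 0) (hβ : β ≠ 0) : ∃ x y, α * x ^ 2 + β * y ^ 2 = δ := by
  by_cases hodd : Odd (Fintype.card K)
  · exact exists_sq_add_sq hodd α β δ hα hβ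
  · have h2 : ringChar K = 2 := by
      rw [FiniteField.even_card_iff_char_two]
      exact Nat.even_iff.1 (Nat.not_odd_iff_even.1 hodd)
    obtain ⟨c, hc⟩ := FiniteField.isSquare_of_char_two h2 (δ / α)
    refine ⟨c, 0, ?_⟩
    have : c ^ 2 = δ / α := by rw [hc]; ring
    rw [this]; field_simp; ring

section quad

variable {F W : Type*} [Field F] [AddCommGroup W] [Module F W] (q : QuadraticForm F W)

lemma qmap_add (x y : W) : q (x + y) = q x + q y + polar q x y := by
  simp only [polar]; ring

lemma qmap_sub (x y : W) : q (x - y) = q x + q y - polar q x y := by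
  rw [sub_eq_add_neg, qmap_add, QuadraticMap.map_neg, polar_neg_right]; ring

lemma qexists_perp_nonsing [FiniteDimensional F W] (hnd : (polarBilin q).Nondegenerate) {k : ℕ}
    (a : Fin k → W) (hk : 2 * k < finrank F W) : ∃ z, (∀ i, polar q z (a i) = 0) ∧ q z ≠ 0 := by
  by_contra hcon
  push Not at hcon
  let B : LinearMap.BilinForm F W := polarBilin q
  let L : W →ₗ[F] (Fin k → F) := LinearMap.pi (fun i => B.flip (a i))
  have hmem : ∀ z, z ∈ LinearMap.ker L ↔ ∀ i, polar q z (a i) = 0 := by
    intro z
    rw [LinearMap.mem_ker]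
    constructor
    · intro h i
      have := congrFun h i
      simpa [L, B] using this
    · intro h
      ext i
      simpa [L, B] using h i
  have h1 : LinearMap.ker L ≤ Submodule.span F (Set.range a) := by
    intro w hw
    apply smem_span_of_perp (B := B) hnd a
    intro z hz
    have hz' : z ∈ LinearMap.ker L := (hmem z).2 (fun i => by simpa [B] using hz i)
    have e1 := hcon z ((hmem z).1 hz')
    have e2 := hcon w ((hmem w).1 hw)
    have e3 := hcon (z + w) ((hmem _).1 ((LinearMap.ker L).add_mem hz' hw))
    change polar q z w = 0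
    simp only [polar, e1, e2, e3]; ring
  have h2' : finrank F (LinearMap.ker L) ≤ k := by
    refine (Submodule.finrank_mono h1).trans ?_
    have := finrank_range_le_card (R := F) a
    rw [Fintype.card_fin] at this
    exact this
  have h3 := LinearMap.finrank_range_add_finrank_ker L
  have h4 : finrank F (LinearMap.range L) ≤ k := by
    simpa using Submodule.finrank_le (LinearMap.range L)
  omega

lemma qexists_perp_norm [Fintype F] [FiniteDimensional F W] (hnd : (polarBilin q).Nondegenerate)
    {k : ℕ} (a : Fin k → W) (hk : 2 * (k + 1) < finrank F W) (δ : F) :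
    ∃ e, (∀ i, polar q e (a i) = 0) ∧ q e = δ := by
  obtain ⟨e₁, h1, h11⟩ := qexists_perp_nonsing q hnd a (by omega)
  obtain ⟨e₂, h2', h22⟩ := qexists_perp_nonsing q hnd (Fin.cons e₁ a : Fin (k + 1) → W) hk
  have h21 : polar q e₂ e₁ = 0 := by simpa using h2' 0
  have h2a : ∀ i, polar q e₂ (a i) = 0 := fun i => by simpa using h2' i.succ
  obtain ⟨x, y, hxy⟩ := exists_sq_add_sq' _ _ δ h11 h22
  refine ⟨x • e₁ + y • e₂, fun i => ?_, ?_⟩
  · simp [polar_add_left, polar_smul_left, h1 i, h2a i]
  · rw [qmap_add, QuadraticMap.map_smul, QuadraticMap.map_smul, polar_smul_left, polar_smul_right,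
      polar_comm q e₁ e₂, h21]
    simp only [smul_eq_mul]
    linear_combination hxy

lemma qexists_perp2 [Fintype F] [FiniteDimensional F W] (hnd : (polarBilin q).Nondegenerate)
    (hd : 6 < finrank F W) (x y : W) (δ : F) :
    ∃ e, q e = δ ∧ polar q e x = 0 ∧ polar q e y = 0 := by
  obtain ⟨e, h1, h2⟩ := qexists_perp_norm q hnd ![x, y] (by omega) δ
  exact ⟨e, h2, h1 0, h1 1⟩

lemma qexists_dual (hnd : (polarBilin q).Nondegenerate) {u : W} (hu : u ≠ 0) :
    ∃ y, polar q u y = 1 := by
  by_contra hcon
  push Not at hcon
  apply hu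
  apply hnd.1
  intro y
  by_contra hy
  change polar q u y ≠ 0 at hy
  apply hcon ((polar q u y)⁻¹ • y)
  rw [polar_smul_right, smul_eq_mul, inv_mul_cancel₀ hy]

/-- prescribed norm and prescribed inner product with a given non-zero vector -/
lemma quniv [Fintype F] [FiniteDimensional F W] (hnd : (polarBilin q).Nondegenerate)
    (hd : 6 < finrank F W) {u : W} (hu : u ≠ 0) (α s : F) :
    ∃ w, w ≠ 0 ∧ q w = α ∧ polar q u w = s := by
  obtain ⟨u', hu'⟩ := qexists_dual q hnd hu
  by_cases hβ : α - s ^ 2 * q u' = 0
  · by_cases hs : s = 0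
    · -- need a non-zero singular vector orthogonal to u
      subst hs
      have hα : α = 0 := by simpa using hβ
      subst hα
      by_cases hqu : q u = 0
      · refine ⟨u, hu, hqu, ?_⟩
        rw [polar_self, hqu]; simp
      by_cases h2 : (2 : F) = 0
      · obtain ⟨e, he, he1, he2⟩ := qexists_perp2 q hnd hd u u' (q u)
        refine ⟨u + e, ?_, ?_, ?_⟩
        · intro h0
          have : polar q (u + e) u' = 1 := by rw [polar_add_left, hu', he2, add_zero]
          rw [h0] at this
          simp at this
        · rw [qmap_add, he, polar_comm, he1]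
          linear_combination (q u) * h2
        · rw [polar_add_right, polar_self, polar_comm, he1]
          simp only [nsmul_eq_mul]; push_cast
          linear_combination (q u) * h2
      · obtain ⟨e₁, he₁, h11, -⟩ := qexists_perp2 q hnd hd u u 1
        obtain ⟨e₂, he₂, h21, h22⟩ := qexists_perp2 q hnd hd u e₁ (-1)
        refine ⟨e₁ + e₂, ?_, ?_, ?_⟩
        · intro h0
          have h3 : e₂ = -e₁ := by rw [eq_neg_iff_add_eq_zero, add_comm]; exact h0
          rw [h3, polar_neg_left, polar_self, he₁] at h22
          apply h2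
          simp only [nsmul_eq_mul] at h22; push_cast at h22
          linear_combination -h22
        · rw [qmap_add, he₁, he₂, polar_comm, h22]; ring
        · rw [polar_add_right, polar_comm, h11, polar_comm, h21]; ring
    · refine ⟨s • u', ?_, ?_, ?_⟩
      · intro h0
        have : polar q u (s • u') = s := by rw [polar_smul_right, hu']; simp
        rw [h0] at this
        simp at this
        exact hs this.symm
      · rw [QuadraticMap.map_smul]; linear_combination -hβ
      · rw [polar_smul_right, hu']; simp
  · obtain ⟨e, he, he1, he2⟩ := qexists_perp2 q hnd hd u u' (α - s ^ 2 * q u')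
    have hq : q (s • u' + e) = α := by
      rw [qmap_add, QuadraticMap.map_smul, he, polar_smul_left, polar_comm, he2]
      simp only [smul_eq_mul]; ring
    have hp : polar q u (s • u' + e) = s := by
      rw [polar_add_right, polar_smul_right, hu', polar_comm q u e, he1]; simp
    refine ⟨s • u' + e, ?_, hq, hp⟩
    intro h0
    rw [h0] at hq hp
    simp only [map_zero, polar_zero_right] at hq hp
    apply hβ
    rw [← hq, ← hp]; ring

end quad

end Cfsg.Agent.Lib.Helper95
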