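import Cfsg.Agent.Lib.Helper95.OmPerp

set_option autoImplicit false
set_option linter.unusedSimpArgs false

namespace Cfsg.Agent.Lib.Helper95

open QuadraticMap Module Cfsg.Agent.Lib.Helper49
open scoped commutatorElement

section sieg

variable {F V : Type*} [Field F] [AddCommGroup V] [Module F V] (Q : QuadraticForm F V)

/-- a pair of orthogonal singular vectors -/
structure SPair (u v : V) : Prop where
  qu : Q u = 0
  qv : Q v = 0
  uv : polar Q u v = 0

/-- the long root (Siegel) map `x ↦ x + f(u,x) v - f(v,x) u` -/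
def sgLin (u v : V) : V →ₗ[F] V :=
  LinearMap.id + (LinearMap.toSpanSingleton F V v).comp (polarBilin Q u)
    - (LinearMap.toSpanSingleton F V u).comp (polarBilin Q v)

lemma sgLin_apply (u v x : V) : sgLin Q u v x = x + polar Q u x • v - polar Q v x • u := by
  simp [sgLin, LinearMap.toSpanSingleton_apply]

variable {Q}

lemma polar_self_of_Q {u : V} (h : Q u = 0) : polar Q u u = 0 := by
  rw [polar_self, h]; simp

lemma SPair.uu {u v : V} (h : SPair Q u v) : polar Q u u = 0 := polar_self_of_Q h.qu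
lemma SPair.vv {u v : V} (h : SPair Q u v) : polar Q v v = 0 := polar_self_of_Q h.qv
lemma SPair.vu {u v : V} (h : SPair Q u v) : polar Q v u = 0 := by rw [polar_comm]; exact h.uv

lemma SPair.symm {u v : V} (h : SPair Q u v) : SPair Q v u := ⟨h.qv, h.qu, h.vu⟩

lemma SPair.smul_right {u v : V} (h : SPair Q u v) (c : F) : SPair Q u (c • v) :=
  ⟨h.qu, by rw [QuadraticMap.map_smul, h.qv]; simp, by rw [polar_smul_right, h.uv]; simp⟩

lemma SPair.neg_right {u v : V} (h : SPair Q u v) : SPair Q u (-v) :=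
  ⟨h.qu, by rw [QuadraticMap.map_neg, h.qv], by rw [polar_neg_right, h.uv]; simp⟩

lemma SPair.map {u v : V} (h : SPair Q u v) (g : OG Q) : SPair Q (g.1 u) (g.1 v) :=
  ⟨by rw [OG_apply, h.qu], by rw [OG_apply, h.qv], by rw [OG_polar, h.uv]⟩

lemma SPair.add_right {u v v' : V} (h : SPair Q u v) (h' : SPair Q u v')
    (hvv : polar Q v v' = 0) : SPair Q u (v + v') :=
  ⟨h.qu, by rw [qmap_add, h.qv, h'.qv, hvv]; simp, by rw [polar_add_right, h.uv, h'.uv]; simp⟩

lemma sgLin_sgLin_neg {u v : V} (h : SPair Q u v) (x : V) :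
    sgLin Q u v (sgLin Q u (-v) x) = x := by
  simp only [sgLin_apply, polar_add_right, polar_sub_right, polar_smul_right, polar_neg_left,
    polar_neg_right, h.uu, h.vv, h.uv, h.vu, smul_eq_mul, mul_zero, neg_zero, add_zero, sub_zero]
  module

lemma Q_sgLin {u v : V} (h : SPair Q u v) (x : V) : Q (sgLin Q u v x) = Q x := by
  rw [sgLin_apply, qmap_sub, qmap_add, QuadraticMap.map_smul, QuadraticMap.map_smul, h.qu, h.qv,
    polar_add_left, polar_smul_right, polar_smul_right, polar_smul_left, polar_smul_right, h.vu,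
    polar_comm Q x v, polar_comm Q x u]
  simp only [smul_eq_mul]
  ring

/-- the long root element as an isometry -/
def sg {u v : V} (h : SPair Q u v) : OG Q :=
  ⟨LinearEquiv.ofLinearMap (sgLin Q u v) (sgLin Q u (-v))
    (by ext x; exact sgLin_sgLin_neg h x)
    (by
      ext x
      have := sgLin_sgLin_neg h.neg_right x
      rw [neg_neg] at this
      exact this), fun x => Q_sgLin h x⟩

@[simp] lemma sg_apply {u v : V} (h : SPair Q u v) (x : V) :
    (sg h).1 x = x + polar Q u x • v - polar Q v x • u := sgLin_apply Q u v x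

lemma OG_ext {g k : OG Q} (h : ∀ x, g.1 x = k.1 x) : g = k :=
  Subtype.ext (LinearEquiv.ext h)

lemma sg_inv {u v : V} (h : SPair Q u v) : (sg h)⁻¹ = sg h.neg_right := by
  apply inv_eq_of_mul_eq_one_right
  apply OG_ext
  intro x
  exact sgLin_sgLin_neg h x

lemma sg_conj {u v : V} (h : SPair Q u v) (g : OG Q) : g * sg h * g⁻¹ = sg (h.map g) := by
  rw [mul_inv_eq_iff_eq_mul]
  apply OG_ext
  intro x
  simp only [Subgroup.coe_mul, LinearEquiv.mul_apply, sg_apply, map_add, map_sub, map_smul,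
    OG_polar]

lemma sg_add {u v v' : V} (h : SPair Q u v) (h' : SPair Q u v') (hvv : polar Q v v' = 0) :
    sg (h.add_right h' hvv) = sg h * sg h' := by
  apply OG_ext
  intro x
  simp only [Subgroup.coe_mul, LinearEquiv.mul_apply, sg_apply, polar_add_right, polar_sub_right,
    polar_smul_right, polar_add_left, h.uu, h.uv, h'.uv, h.vu, hvv, smul_eq_mul, mul_zero,
    add_zero, sub_zero]
  module

/-- the commutator formula for long root elements -/
lemma sg_commutator {a b u v : V} (h₁ : SPair Q a b) (h₂ : SPair Q u v) (c1 : polar Q u a = 0)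
    (c2 : polar Q u b = 0) (c3 : polar Q v a = 0) (c4 : polar Q v b = 1) (h₃ : SPair Q a u) :
    sg h₃ = ⁅sg h₁, sg h₂⁆ := by
  rw [commutatorElement_def, sg_inv, sg_inv]
  apply OG_ext
  intro x
  have c1' : polar Q a u = 0 := by rw [polar_comm]; exact c1
  have c2' : polar Q b u = 0 := by rw [polar_comm]; exact c2
  have c3' : polar Q a v = 0 := by rw [polar_comm]; exact c3
  have c4' : polar Q b v = 1 := by rw [polar_comm]; exact c4
  simp only [Subgroup.coe_mul, LinearEquiv.mul_apply, sg_apply, polar_add_right, polar_sub_right,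
    polar_smul_right, polar_neg_left, polar_neg_right, h₁.uu, h₁.vv, h₁.uv, h₁.vu, h₂.uu, h₂.vv,
    h₂.uv, h₂.vu, c1, c2, c3, c4, c1', c2', c3', c4', smul_eq_mul, mul_zero, mul_one, neg_zero,
    add_zero, sub_zero, zero_add]
  module

variable (M : Subgroup (OG Q))

/-- the long root element attached to `(u, v)` lies in `M` -/
def LR (u v : V) : Prop := ∃ h : SPair Q u v, sg h ∈ M

variable {M}

lemma LR.symm {u v : V} (h : LR M u v) : LR M v u := by
  obtain ⟨hs, hm⟩ := h
  refine ⟨hs.symm, ?_⟩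
  have : sg hs.symm = (sg hs)⁻¹ := by
    rw [sg_inv]
    apply OG_ext
    intro x
    simp only [sg_apply, polar_neg_left]
    module
  rw [this]
  exact M.inv_mem hm

lemma LR.conj {u v : V} (h : LR M u v) {g : OG Q} (hg : g ∈ M) : LR M (g.1 u) (g.1 v) := by
  obtain ⟨hs, hm⟩ := h
  refine ⟨hs.map g, ?_⟩
  rw [← sg_conj hs g]
  exact M.mul_mem (M.mul_mem hg hm) (M.inv_mem hg)

lemma LR.add {u v v' : V} (h : LR M u v) (h' : LR M u v') (hvv : polar Q v v' = 0) :
    LR M u (v + v') := by
  obtain ⟨hs, hm⟩ := h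
  obtain ⟨hs', hm'⟩ := h'
  exact ⟨hs.add_right hs' hvv, by rw [sg_add hs hs' hvv]; exact M.mul_mem hm hm'⟩

lemma LR.prop {a b u v : V} (h₁ : LR M a b) (h₂ : LR M u v) (c1 : polar Q u a = 0)
    (c2 : polar Q u b = 0) (c3 : polar Q v a = 0) (c4 : polar Q v b = 1) : LR M a u := by
  obtain ⟨hs₁, hm₁⟩ := h₁
  obtain ⟨hs₂, hm₂⟩ := h₂
  have hs₃ : SPair Q a u := ⟨hs₁.qu, hs₂.qu, by rw [polar_comm]; exact c1⟩
  refine ⟨hs₃, ?_⟩
  rw [sg_commutator hs₁ hs₂ c1 c2 c3 c4 hs₃, commutatorElement_def]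
  exact M.mul_mem (M.mul_mem (M.mul_mem hm₁ hm₂) (M.inv_mem hm₁)) (M.inv_mem hm₂)

lemma LR.smul_swap {u v : V} {c : F} (h : LR M u (c • v)) (hv : Q v = 0) (hc : c ≠ 0) :
    LR M (c • u) v := by
  obtain ⟨hs, hm⟩ := h
  have huv : polar Q u v = 0 := by
    have := hs.uv
    rw [polar_smul_right, smul_eq_mul] at this
    exact (mul_eq_zero.1 this).resolve_left hc
  have hs' : SPair Q (c • u) v :=
    ⟨by rw [QuadraticMap.map_smul, hs.qu]; simp, hv, by rw [polar_smul_left, huv]; simp⟩
  refine ⟨hs', ?_⟩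
  have : sg hs' = sg hs := by
    apply OG_ext
    intro x
    simp only [sg_apply, polar_smul_left, smul_eq_mul]
    module
  rw [this]; exact hm

lemma LR.zero_left (v : V) (hv : Q v = 0) : LR M 0 v := by
  have hs : SPair Q 0 v := ⟨by simp, hv, by simp⟩
  refine ⟨hs, ?_⟩
  have : sg hs = 1 := by
    apply OG_ext
    intro x
    simp [sg_apply]
  rw [this]; exact M.one_mem

end sieg

end Cfsg.Agent.Lib.Helper95
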