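import Cfsg.Agent.Lib.Helper95.SLSymp

set_option autoImplicit false
set_option linter.unusedSimpArgs false

namespace Cfsg.Agent.Lib.Helper95

open Module

/-- Binary diagonal forms over finite fields of odd order are universal. -/
lemma exists_sq_add_sq {K : Type*} [Field K] [Fintype K] (hodd : Odd (Fintype.card K))
    (α β δ : K) (hα : α ≠ 0) (hβ : β ≠ 0) : ∃ x y, α * x ^ 2 + β * y ^ 2 = δ := by
  open Polynomial in
  have h1 : (C α * X ^ 2 : K[X]).degree = 2 := by
    rw [degree_C_mul_X_pow 2 hα]; rfl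
  have h2 : (C β * X ^ 2 - C δ : K[X]).degree = 2 := by
    rw [degree_sub_eq_left_of_degree_lt]
    · rw [degree_C_mul_X_pow 2 hβ]; rfl
    · rw [degree_C_mul_X_pow 2 hβ]
      exact lt_of_le_of_lt degree_C_le (by norm_num)
  obtain ⟨a, b, hab⟩ := FiniteField.exists_root_sum_quadratic h1 h2 (Nat.odd_iff.1 hodd)
  refine ⟨a, b, ?_⟩
  simp only [Polynomial.eval_mul, Polynomial.eval_C, Polynomial.eval_pow, Polynomial.eval_X,
    Polynomial.eval_sub] at hab
  linear_combination hab

section sym

variable {K V : Type*} [Field K] [AddCommGroup V] [Module K V] {B : LinearMap.BilinForm K V}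

lemma sexists_perp [FiniteDimensional K V] {k : ℕ} (a : Fin k → V) (hk : k < finrank K V) :
    ∃ z, z ≠ 0 ∧ ∀ i, B z (a i) = 0 := by
  let L : V →ₗ[K] (Fin k → K) := LinearMap.pi (fun i => B.flip (a i))
  have hker : LinearMap.ker L ≠ ⊥ := LinearMap.ker_ne_bot_of_finrank_lt (by simpa using hk)
  obtain ⟨z, hz, hz0⟩ := Submodule.exists_mem_ne_zero_of_ne_bot hker
  refine ⟨z, hz0, fun i => ?_⟩
  have := congrFun (LinearMap.mem_ker.1 hz) i
  simpa [L] using this

lemma smem_span_of_perp (hnd : B.Nondegenerate) {k : ℕ} (a : Fin k → V) {w : V}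
    (h : ∀ z, (∀ i, B z (a i) = 0) → B z w = 0) : w ∈ Submodule.span K (Set.range a) := by
  have h1 : B.flip w ∈ Submodule.span K (Set.range (fun i => B.flip (a i))) := by
    apply mem_span_of_iInf_ker_le_ker
    intro z hz
    rw [Submodule.mem_iInf] at hz
    exact h z hz
  obtain ⟨c, hc⟩ := (Submodule.mem_span_range_iff_exists_fun K).1 h1
  have h2 : w = ∑ i, c i • a i := by
    rw [← sub_eq_zero]
    apply hnd.2
    intro x
    have := congrArg (fun φ : V →ₗ[K] K => φ x) hc
    simp only [LinearMap.sum_apply, LinearMap.smul_apply, LinearMap.BilinForm.flip_apply,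
      smul_eq_mul] at this
    rw [map_sub, map_sum, ← this]
    simp
  rw [h2]
  exact Submodule.sum_mem _ fun i _ => Submodule.smul_mem _ _ (Submodule.subset_span ⟨i, rfl⟩)

/-- The reflection in the non-singular vector `a`. -/
def rf (B : LinearMap.BilinForm K V) (a : V) (ha : B a a ≠ 0) : V ≃ₗ[K] V :=
  Module.reflection (x := a) (f := (2 / B a a) • B.flip a)
    (by simp only [LinearMap.smul_apply, LinearMap.BilinForm.flip_apply, smul_eq_mul]; field_simp)

variable (hB : B.IsSymm) (h2 : (2 : K) ≠ 0)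

include hB h2 in
lemma spolarize {Z : Submodule K V} (h : ∀ z ∈ Z, B z z = 0) {z z' : V} (hz : z ∈ Z)
    (hz' : z' ∈ Z) : B z z' = 0 := by
  have := h (z + z') (Z.add_mem hz hz')
  simp only [map_add, LinearMap.add_apply, h z hz, h z' hz', hB.eq z' z] at this
  have h3 : 2 * B z z' = 0 := by linear_combination this
  rcases mul_eq_zero.1 h3 with h4 | h4
  · exact absurd h4 h2
  · exact h4

include hB h2 in
lemma exists_perp_nonsing [FiniteDimensional K V] (hnd : B.Nondegenerate) {k : ℕ} (a : Fin k → V)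
    (hk : 2 * k < finrank K V) : ∃ z, (∀ i, B z (a i) = 0) ∧ B z z ≠ 0 := by
  by_contra hcon
  push Not at hcon
  let L : V →ₗ[K] (Fin k → K) := LinearMap.pi (fun i => B.flip (a i))
  have hmem : ∀ z, z ∈ LinearMap.ker L ↔ ∀ i, B z (a i) = 0 := by
    intro z
    rw [LinearMap.mem_ker]
    constructor
    · intro h i
      have := congrFun h i
      simpa [L] using this
    · intro h
      ext i
      simpa [L] using h i
  have h1 : LinearMap.ker L ≤ Submodule.span K (Set.range a) := by
    intro w hw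
    apply smem_span_of_perp hnd a
    intro z hz
    exact spolarize hB h2 (Z := LinearMap.ker L) (fun z hz => hcon z ((hmem z).1 hz))
      ((hmem z).2 hz) hw
  have h2' : finrank K (LinearMap.ker L) ≤ k := by
    refine (Submodule.finrank_mono h1).trans ?_
    have := finrank_range_le_card (R := K) a
    rw [Fintype.card_fin] at this
    exact this
  have h3 := LinearMap.finrank_range_add_finrank_ker L
  have h4 : finrank K (LinearMap.range L) ≤ k := by
    simpa using Submodule.finrank_le (LinearMap.range L)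
  omega

include hB h2 in
lemma exists_perp_norm [FiniteDimensional K V] (hnd : B.Nondegenerate)
    (hU : ∀ α β δ : K, α ≠ 0 → β ≠ 0 → ∃ x y, α * x ^ 2 + β * y ^ 2 = δ) {k : ℕ} (a : Fin k → V)
    (hk : 2 * (k + 1) < finrank K V) (δ : K) : ∃ e, (∀ i, B e (a i) = 0) ∧ B e e = δ := by
  obtain ⟨e₁, h1, h11⟩ := exists_perp_nonsing hB h2 hnd a (by omega)
  obtain ⟨e₂, h2', h22⟩ := exists_perp_nonsing hB h2 hnd (Fin.cons e₁ a : Fin (k + 1) → V) hk
  have h21 : B e₂ e₁ = 0 := by simpa using h2' 0
  have h2a : ∀ i, B e₂ (a i) = 0 := fun i => by simpa using h2' i.succ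
  obtain ⟨x, y, hxy⟩ := hU _ _ δ h11 h22
  refine ⟨x • e₁ + y • e₂, fun i => ?_, ?_⟩
  · simp [h1 i, h2a i]
  · simp only [map_add, map_smul, LinearMap.add_apply, LinearMap.smul_apply, smul_eq_mul, h21,
      hB.eq e₁ e₂]
    linear_combination hxy

/-! ### Reflections -/

lemma rf_apply (a : V) (ha : B a a ≠ 0) (x : V) : rf B a ha x = x - (2 / B a a * B x a) • a := by
  simp [rf, Module.reflection_apply]

lemma rf_apply_of_perp {a : V} (ha : B a a ≠ 0) {x : V} (h : B x a = 0) : rf B a ha x = x := by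
  rw [rf_apply, h]; simp

lemma rf_mul_self (a : V) (ha : B a a ≠ 0) : rf B a ha * rf B a ha = 1 := by
  ext x
  exact Module.involutive_reflection _ x

lemma rf_inv (a : V) (ha : B a a ≠ 0) : (rf B a ha)⁻¹ = rf B a ha :=
  inv_eq_of_mul_eq_one_left (rf_mul_self a ha)

include hB in
lemma rf_isometry (a : V) (ha : B a a ≠ 0) (x y : V) : B (rf B a ha x) (rf B a ha y) = B x y := by
  simp only [rf_apply, map_sub, map_smul, LinearMap.sub_apply, LinearMap.smul_apply, smul_eq_mul,
    hB.eq a y]
  field_simp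
  ring

lemma rf_det [FiniteDimensional K V] (a : V) (ha : B a a ≠ 0) :
    LinearEquiv.det (rf B a ha) = -1 := by
  apply Units.ext
  rw [LinearEquiv.coe_det]
  have : ((rf B a ha : V ≃ₗ[K] V) : V →ₗ[K] V) =
      LinearMap.transvection (-((2 / B a a) • B.flip a)) a := by
    ext x
    rw [LinearEquiv.coe_coe, rf_apply, LinearMap.transvection.apply]
    simp only [LinearMap.neg_apply, LinearMap.smul_apply, LinearMap.BilinForm.flip_apply, smul_eq_mul]
    module
  rw [this, LinearMap.transvection.det]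
  simp only [LinearMap.neg_apply, LinearMap.smul_apply, LinearMap.BilinForm.flip_apply, smul_eq_mul,
    Units.val_neg, Units.val_one]
  field_simp
  ring

lemma conj_gtv {h : V ≃ₗ[K] V} (hh : ∀ x y, B (h x) (h y) = B x y) (u w : V) (huw : B u w = 0) :
    h * gtv B u w huw * h⁻¹ = gtv B (h u) (h w) (by rw [hh, huw]) := by
  ext x
  have e : B (h.symm x) w = B x (h w) := by
    rw [← hh (h.symm x) w, LinearEquiv.apply_symm_apply]
  simp [LinearEquiv.mul_apply, e]

lemma gtv_add_left (u u' w : V) (h : B u w = 0) (h' : B u' w = 0) :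
    gtv B u w h * gtv B u' w h' = gtv B (u + u') w (by simp [h, h']) := by
  ext x
  simp only [LinearEquiv.mul_apply, gtv_apply, map_add, map_smul, LinearMap.add_apply,
    LinearMap.smul_apply, h']
  module

end sym

end Cfsg.Agent.Lib.Helper95
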