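import Cfsg.Agent.Lib.Helper95.SympMax

set_option autoImplicit false

namespace Cfsg.Agent.Lib.Helper95

open LinearMap Module

variable {K V : Type*} [Field K] [AddCommGroup V] [Module K V]
variable {B : LinearMap.BilinForm K V}
variable {M : Subgroup (V ≃ₗ[K] V)}

/-- The transvection `x ↦ x + B(x, w) u`, for `B(u, w) = 0`. -/
def gtv (B : LinearMap.BilinForm K V) (u w : V) (h : B u w = 0) : V ≃ₗ[K] V :=
  LinearEquiv.transvection (f := B.flip w) (v := u) (by simpa using h)

@[simp] lemma gtv_apply (u w : V) (h : B u w = 0) (x : V) : gtv B u w h x = x + B x w • u := by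
  simp [gtv, LinearMap.transvection.apply]

lemma gtv_inv (u w : V) (h : B u w = 0) :
    (gtv B u w h)⁻¹ = gtv B u (-w) (by simp [h]) := by
  rw [inv_eq_iff_mul_eq_one]
  ext x
  simp [LinearEquiv.mul_apply, h]

lemma gtv_add (u w w' : V) (h : B u w = 0) (h' : B u w' = 0) :
    gtv B u w h * gtv B u w' h' = gtv B u (w + w') (by simp [h, h']) := by
  ext x
  simp only [LinearEquiv.mul_apply, gtv_apply, map_add, map_smul, h]
  module

lemma gtv_comm (u w u' w' : V) (h : B u w = 0) (h' : B u' w' = 0) (h'' : B u w' = 0) :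
    gtv B u w h * gtv B u' w' h' * (gtv B u w h)⁻¹ * (gtv B u' w' h')⁻¹ =
      gtv B u (B u' w • w') (by simp [h'']) := by
  rw [gtv_inv, gtv_inv]
  ext x
  simp only [LinearEquiv.mul_apply, gtv_apply, map_add, map_smul, map_neg, h, h', h'', smul_eq_mul]
  module

lemma stv_eq_gtv (hB : B.IsAlt) (v : V) (c : K) :
    stv B hB v c = gtv B v (c • v) (by simp [hB v]) := by
  ext x
  simp

/-- All scalar multiples of the transvection with direction `u` and "axis vector" `w` lie in `M`. -/
def PP (B : LinearMap.BilinForm K V) (M : Subgroup (V ≃ₗ[K] V)) (u w : V) : Prop :=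
  ∀ (c : K) (h : B u (c • w) = 0), gtv B u (c • w) h ∈ M

lemma PP_add {u w w' : V} (hw0 : B u w = 0) (hw0' : B u w' = 0) (hw : PP B M u w)
    (hw' : PP B M u w') : PP B M u (w + w') := by
  intro c h
  have := mul_mem (hw c (by simp [hw0])) (hw' c (by simp [hw0']))
  rw [gtv_add] at this
  simpa only [smul_add] using this

lemma PP_neg {u w : V} (hw : PP B M u w) : PP B M u (-w) := by
  intro c h
  have := hw (-c) (by simpa using h)
  simpa only [neg_smul, smul_neg] using this

/-- All transvections with direction `u` lie in `M`. -/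
def Good (B : LinearMap.BilinForm K V) (M : Subgroup (V ≃ₗ[K] V)) (u : V) : Prop :=
  ∀ (w : V) (h : B u w = 0), gtv B u w h ∈ M

variable (hB : B.IsAlt)

include hB in
lemma PP_step1 (hM : ∀ v c, stv B hB v c ∈ M) {u w x : V} (huw : B u w = 0) (hw : PP B M u w)
    (hux : B u x = 0) (hxw : B x w ≠ 0) : PP B M u x := by
  intro c h
  have h1 := hw (c / B x w) (by simp [huw])
  have h2 := hM x 1
  rw [stv_eq_gtv] at h2
  have h3 := mul_mem (mul_mem (mul_mem h1 h2) (inv_mem h1)) (inv_mem h2)
  rw [gtv_comm _ _ _ _ _ _ (by simp [hux])] at h3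
  have e : B x ((c / B x w) • w) • (1 : K) • x = c • x := by
    rw [map_smul, smul_eq_mul, div_mul_cancel₀ _ hxw, one_smul]
  simpa only [e] using h3

include hB in
lemma good_of_PP [FiniteDimensional K V] (hnd : B.Nondegenerate) (hM : ∀ v c, stv B hB v c ∈ M)
    {u w : V} (huw : B u w = 0) (hw : PP B M u w) (hws : w ∉ Submodule.span K {u}) :
    Good B M u := by
  have hex : ∃ x₀, B u x₀ = 0 ∧ B x₀ w ≠ 0 := by
    by_contra hcon
    push Not at hcon
    apply hws
    rw [← LinearMap.BilinForm.orthogonal_orthogonal hnd hB.isRefl (Submodule.span K {u}),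
      LinearMap.BilinForm.mem_orthogonal_iff]
    intro x hx
    exact hcon x (LinearMap.BilinForm.mem_orthogonal_iff.1 hx u (Submodule.mem_span_singleton_self u))
  obtain ⟨x₀, hx1, hx2⟩ := hex
  intro y hy
  have hPy : PP B M u y := by
    by_cases hyw : B y w = 0
    · have h1 : PP B M u (y + x₀) :=
        PP_step1 hB hM huw hw (by simp [hy, hx1]) (by simp [hyw, hx2])
      have h2 : PP B M u x₀ := PP_step1 hB hM huw hw hx1 hx2
      have h3 := PP_add (by simp [hy, hx1]) (by simp [hx1]) h1 (PP_neg h2)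
      simpa using h3
    · exact PP_step1 hB hM huw hw hy hyw
  have := hPy 1 (by simp [hy])
  simpa only [one_smul] using this

include hB in
lemma good_step2 [FiniteDimensional K V] (hnd : B.Nondegenerate) (hdim : 3 ≤ finrank K V)
    (hM : ∀ v c, stv B hB v c ∈ M) {u x : V} (hu : Good B M u) (hux : B u x ≠ 0) :
    Good B M x := by
  classical
  -- a non-zero vector orthogonal to both
  have hex : ∃ w', w' ≠ 0 ∧ B u w' = 0 ∧ B x w' = 0 := by
    set S : Submodule K V := Submodule.span K (({u, x} : Finset V) : Set V) with hS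
    have hS2 : finrank K S ≤ 2 :=
      (finrank_span_finset_le_card ({u, x} : Finset V)).trans Finset.card_le_two
    have hZd : finrank K (B.orthogonal S) = finrank K V - finrank K S :=
      LinearMap.BilinForm.finrank_orthogonal hnd S
    have hne : B.orthogonal S ≠ ⊥ := by
      intro h
      rw [h, finrank_bot] at hZd
      omega
    obtain ⟨w', hw', hw0⟩ := Submodule.exists_mem_ne_zero_of_ne_bot hne
    rw [LinearMap.BilinForm.mem_orthogonal_iff] at hw'
    exact ⟨w', hw0, hw' u (Submodule.subset_span (by simp)), hw' x (Submodule.subset_span (by simp))⟩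
  obtain ⟨w', hw0, huw', hxw'⟩ := hex
  have hP : PP B M x w' := by
    intro c h
    have h1 := hM x (B u x)⁻¹
    rw [stv_eq_gtv] at h1
    have h2 := hu (c • w') (by simp [huw'])
    have h3 := mul_mem (mul_mem (mul_mem h1 h2) (inv_mem h1)) (inv_mem h2)
    rw [gtv_comm _ _ _ _ _ _ (by simp [hxw'])] at h3
    have e : B u ((B u x)⁻¹ • x) • c • w' = c • w' := by
      rw [map_smul, smul_eq_mul, inv_mul_cancel₀ hux, one_smul]
    simpa only [e] using h3
  refine good_of_PP hB hnd hM hxw' hP ?_
  intro hmem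
  obtain ⟨l, rfl⟩ := Submodule.mem_span_singleton.1 hmem
  rw [map_smul, smul_eq_mul] at huw'
  rcases mul_eq_zero.1 huw' with h | h
  · exact hw0 (by rw [h, zero_smul])
  · exact hux h

include hB in
/-- If `g` maps orthogonal pairs suitably then it is a similitude. -/
lemma sim_of_forall (hnd : B.Nondegenerate) [Nontrivial V] (g : V ≃ₗ[K] V)
    (h : ∀ v, ∃ l : K, ∀ y, B y v = l * B (g y) (g v)) :
    ∃ c : K, c ≠ 0 ∧ ∀ x y, B (g x) (g y) = c * B x y := by
  choose l hl using h
  have hex : ∀ v : V, v ≠ 0 → ∃ y ∈ (⊤ : Submodule K V), B v y ≠ 0 := by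
    intro v hv
    by_contra hcon
    push Not at hcon
    exact hv (hnd.1 v fun y => hcon y trivial)
  have hl0 : ∀ v, v ≠ 0 → l v ≠ 0 := by
    intro v hv h0
    obtain ⟨y, _, hy⟩ := hex v hv
    apply hy
    rw [alt_swap hB, hl v y, h0, zero_mul, neg_zero]
  have hadj : ∀ v v', B v v' ≠ 0 → l v = l v' := by
    intro v v' hvv
    have h1 := hl v' v
    have h2 := hl v v'
    rw [alt_swap hB v' v, alt_swap hB (g v') (g v), h1] at h2
    have h3 : B (g v) (g v') ≠ 0 := by
      intro h0
      rw [h0, mul_zero] at h1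
      exact hvv h1
    have h4 : (l v - l v') * B (g v) (g v') = 0 := by linear_combination h2
    rcases mul_eq_zero.1 h4 with h | h
    · exact sub_eq_zero.1 h
    · exact absurd h h3
  obtain ⟨v₀, hv₀⟩ := exists_ne (0 : V)
  have hconst : ∀ v, v ≠ 0 → l v = l v₀ := by
    intro v hv
    obtain ⟨z, _, hz1, hz2⟩ := exists_mem_ne_zero_both ⊤ (B v) (B v₀) (hex v hv) (hex v₀ hv₀)
    rw [hadj v z hz1, hadj v₀ z hz2]
  refine ⟨(l v₀)⁻¹, inv_ne_zero (hl0 v₀ hv₀), fun x y => ?_⟩
  by_cases hy : y = 0
  · subst hy; simp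
  · rw [hl y x, hconst y hy, ← mul_assoc, inv_mul_cancel₀ (hl0 v₀ hv₀), one_mul]

include hB in
/-- Abstract form: a subgroup containing the symplectic transvections and an element that is not a
similitude contains all transvections. -/
theorem transvection_mem_of_not_sim [FiniteDimensional K V] (hnd : B.Nondegenerate)
    (hdim : 3 ≤ finrank K V) (hM : ∀ v c, stv B hB v c ∈ M) {g : V ≃ₗ[K] V} (hgM : g ∈ M)
    (hg : ¬ ∃ c : K, c ≠ 0 ∧ ∀ x y, B (g x) (g y) = c * B x y)
    (f : Module.Dual K V) (v : V) (hfv : f v = 0) : LinearEquiv.transvection hfv ∈ M := by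
  have : Nontrivial V := Module.nontrivial_of_finrank_pos (R := K) (by omega)
  have hex : ∀ v : V, v ≠ 0 → ∃ y ∈ (⊤ : Submodule K V), B v y ≠ 0 := by
    intro v hv
    by_contra hcon
    push Not at hcon
    exact hv (hnd.1 v fun y => hcon y trivial)
  -- a first good vector
  have h0 : ∃ u, u ≠ 0 ∧ Good B M u := by
    have h1 : ¬ ∀ v, ∃ l : K, ∀ y, B y v = l * B (g y) (g v) := fun h => hg (sim_of_forall hB hnd g h)
    push Not at h1
    obtain ⟨v, hv⟩ := h1
    set φ : Module.Dual K V := (B.flip v).comp (g.symm : V →ₗ[K] V) with hφ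
    set w : V := -((B.toDual hnd).symm φ) with hw
    have hBw : ∀ x, B x w = B (g.symm x) v := by
      intro x
      rw [hw, map_neg, ← alt_swap hB, LinearMap.BilinForm.apply_toDual_symm_apply]
      simp [hφ]
    have huw : B (g v) w = 0 := by rw [hBw]; simp [hB v]
    have hP : PP B M (g v) w := by
      intro c h
      have h2 : g * stv B hB v c * g⁻¹ ∈ M := mul_mem (mul_mem hgM (hM v c)) (inv_mem hgM)
      have e : g * stv B hB v c * g⁻¹ = gtv B (g v) (c • w) h := by
        ext x
        simp [LinearEquiv.mul_apply, hBw]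
      rwa [e] at h2
    have hv0 : v ≠ 0 := by
      rintro rfl
      obtain ⟨y, hy⟩ := hv 0
      simp at hy
    refine ⟨g v, by simpa using hv0, good_of_PP hB hnd hM huw hP ?_⟩
    intro hmem
    obtain ⟨l, hl⟩ := Submodule.mem_span_singleton.1 hmem
    obtain ⟨y, hy⟩ := hv l
    apply hy
    have := hBw (g y)
    rw [← hl, map_smul, smul_eq_mul] at this
    simpa using this.symm
  obtain ⟨u, hu0, hu⟩ := h0
  by_cases hv0 : v = 0
  · subst hv0
    have : LinearEquiv.transvection hfv = 1 := by
      ext x; simp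
    rw [this]; exact one_mem _
  obtain ⟨z, _, hz1, hz2⟩ := exists_mem_ne_zero_both ⊤ (B u) (B v) (hex u hu0) (hex v hv0)
  have hgz : Good B M z := good_step2 hB hnd hdim hM hu hz1
  have hgv : Good B M v := good_step2 hB hnd hdim hM hgz (by rw [alt_swap hB]; simpa using hz2)
  set w : V := -((B.toDual hnd).symm f) with hw
  have hBw : ∀ x, B x w = f x := by
    intro x
    rw [hw, map_neg, ← alt_swap hB, LinearMap.BilinForm.apply_toDual_symm_apply]
  have := hgv w (by rw [hBw, hfv])
  have e : gtv B v w (by rw [hBw, hfv]) = LinearEquiv.transvection hfv := by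
    ext x
    simp [LinearMap.transvection.apply, hBw]
  rwa [e] at this

include hB in
lemma exists_gtv_not_sim [FiniteDimensional K V] (hnd : B.Nondegenerate)
    (hdim : 3 ≤ finrank K V) :
    ∃ (u w : V) (h : B u w = 0), ¬ ∃ c : K, ∀ x y, B (gtv B u w h x) (gtv B u w h y) = c * B x y := by
  have : Nontrivial V := Module.nontrivial_of_finrank_pos (R := K) (by omega)
  obtain ⟨u, hu⟩ := exists_ne (0 : V)
  have hd : finrank K (B.orthogonal (Submodule.span K {u})) =
      finrank K V - finrank K (Submodule.span K {u}) := LinearMap.BilinForm.finrank_orthogonal hnd _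
  rw [finrank_span_singleton hu] at hd
  have hnle : ¬ B.orthogonal (Submodule.span K {u}) ≤ Submodule.span K {u} := by
    intro hle
    have := Submodule.finrank_mono hle
    rw [finrank_span_singleton hu] at this
    omega
  obtain ⟨w, hw, hw'⟩ := SetLike.not_le_iff_exists.1 hnle
  have huw : B u w = 0 :=
    LinearMap.BilinForm.mem_orthogonal_iff.1 hw u (Submodule.mem_span_singleton_self u)
  refine ⟨u, w, huw, ?_⟩
  rintro ⟨c, hc⟩
  have : ∃ y, B u y ≠ 0 := by
    by_contra hcon
    push Not at hcon
    exact hu (hnd.1 u hcon)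
  obtain ⟨y, hy⟩ := this
  have hyu : B y u ≠ 0 := by rw [alt_swap hB]; simpa using hy
  have h1 := hc y u
  simp only [gtv_apply, huw, zero_smul, add_zero, map_add, map_smul, LinearMap.add_apply,
    LinearMap.smul_apply, hB u, smul_eq_mul, mul_zero] at h1
  have hc1 : c = 1 := by
    have : (c - 1) * B y u = 0 := by linear_combination -h1
    rcases mul_eq_zero.1 this with h | h
    · exact sub_eq_zero.1 h
    · exact absurd h hyu
  apply hw'
  have hker : ∀ x, B x (w - (B y w / B y u) • u) = 0 := by
    intro x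
    have h2 := hc x y
    simp only [gtv_apply, map_add, map_smul, LinearMap.add_apply,
      LinearMap.smul_apply, hB u, smul_eq_mul, mul_zero, hc1, one_mul, add_zero] at h2
    rw [map_sub, map_smul, smul_eq_mul]
    rw [alt_swap hB u y] at h2
    field_simp
    linear_combination -h2
  have h3 := hnd.2 _ hker
  rw [sub_eq_zero] at h3
  rw [h3]
  exact Submodule.smul_mem _ _ (Submodule.mem_span_singleton_self u)

end Cfsg.Agent.Lib.Helper95
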